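import Mathlib
import Cfsg.Agent.H552.Crit4
import Cfsg.Agent.H557.PartS
set_option linter.all false

/-!
# The commutator form on `M = R / Z₀` (helper552; for S4258)
-/

set_option autoImplicit false
set_option linter.unusedSectionVars false
set_option linter.unusedVariables false
set_option linter.style.haveILetI false

universe u

namespace Cfsg.Agent.H552

open scoped commutatorElement
open Cfsg.Agent.OddOrderCharacters.PF9

/-- a biadditive function on a group factors through a quotient vector space -/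
theorem exists_bilin {R : Type*} [Group R] {M Z : Type*} [AddCommGroup M] [Module (ZMod 2) M]
    [AddCommGroup Z] [Module (ZMod 2) Z] (π : R → M) (hs : Function.Surjective π)
    (hadd : ∀ a b, π (a * b) = π a + π b) (c : R → R → Z)
    (h1 : ∀ a b d, c (a * b) d = c a d + c b d) (h2 : ∀ a b d, c a (b * d) = c a b + c a d)
    (h3 : ∀ a b, π a = 0 → c a b = 0) (h4 : ∀ a b, π b = 0 → c a b = 0) :
    ∃ B : M →ₗ[ZMod 2] M →ₗ[ZMod 2] Z, ∀ a b, B (π a) (π b) = c a b := by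
  have hinv : ∀ a, π a⁻¹ = - π a := by
    intro a
    have h := hadd a⁻¹ a
    have h0 : π 1 = 0 := by
      have := hadd 1 1
      rw [mul_one] at this
      exact left_eq_add.1 this
    rw [inv_mul_cancel, h0] at h
    exact eq_neg_of_add_eq_zero_left h.symm
  have hl : ∀ a a' b, π a = π a' → c a b = c a' b := by
    intro a a' b haa
    have h5 : π (a⁻¹ * a') = 0 := by rw [hadd, hinv, haa, neg_add_cancel]
    have h6 : a' = a * (a⁻¹ * a') := by group
    rw [h6, h1, h3 _ _ h5, add_zero]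
  have hr : ∀ a b b', π b = π b' → c a b = c a b' := by
    intro a b b' hbb
    have h5 : π (b⁻¹ * b') = 0 := by rw [hadd, hinv, hbb, neg_add_cancel]
    have h6 : b' = b * (b⁻¹ * b') := by group
    rw [h6, h2, h4 _ _ h5, add_zero]
  let s : M → R := Function.surjInv hs
  have hsv : ∀ v, π (s v) = v := Function.surjInv_eq hs
  have hcl : ∀ v w b, c (s (v + w)) b = c (s v) b + c (s w) b := by
    intro v w b
    rw [← h1]
    apply hl
    rw [hsv, hadd, hsv, hsv]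
  have hcr : ∀ a v w, c a (s (v + w)) = c a (s v) + c a (s w) := by
    intro a v w
    rw [← h2]
    apply hr
    rw [hsv, hadd, hsv, hsv]
  let B₁ : M → (M →ₗ[ZMod 2] Z) := fun v =>
    AddMonoidHom.toZModLinearMap 2 (AddMonoidHom.mk' (fun w => c (s v) (s w)) (fun w w' => hcr _ w w'))
  have hB₁ : ∀ v w, B₁ v w = c (s v) (s w) := fun v w => rfl
  refine ⟨AddMonoidHom.toZModLinearMap 2 (AddMonoidHom.mk' B₁ fun v w => ?_), fun a b => ?_⟩
  · ext x
    rw [LinearMap.add_apply, hB₁, hB₁, hB₁]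
    exact hcl v w _
  · show B₁ (π a) (π b) = c a b
    rw [hB₁]
    rw [hl _ a _ (hsv _), hr _ _ b (hsv _)]

section

variable {G : Type u} [Group G] [Finite G] {k : ℕ} {Q R L N₁ : Subgroup G}

namespace D2

theorem comm_mul_left (h : D2 k Q R L N₁) {a b d : G} (ha : a ∈ R) (hb : b ∈ R) (hd : d ∈ R) :
    ⁅a * b, d⁆ = ⁅a, d⁆ * ⁅b, d⁆ := by
  have h1 : ⁅b, d⁆ ∈ Z0 R L := h.comm_RR (Subgroup.commutator_mem_commutator hb hd)
  have h0 : ⁅a, d⁆ ∈ Z0 R L := h.comm_RR (Subgroup.commutator_mem_commutator ha hd)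
  have h2 : ⁅b, d⁆ * a = a * ⁅b, d⁆ := h.Z0_central h1 ha
  have h3 : ⁅a * b, d⁆ = a * ⁅b, d⁆ * a⁻¹ * ⁅a, d⁆ := by
    simp only [commutatorElement_def]; group
  rw [h3, ← h2, mul_inv_cancel_right]
  exact h.Z0_central h1 h0.1

theorem comm_mul_right (h : D2 k Q R L N₁) {a b d : G} (ha : a ∈ R) (hb : b ∈ R) (hd : d ∈ R) :
    ⁅a, b * d⁆ = ⁅a, b⁆ * ⁅a, d⁆ := by
  have h1 : ⁅a, d⁆ ∈ Z0 R L := h.comm_RR (Subgroup.commutator_mem_commutator ha hd)
  have h2 : ⁅a, d⁆ * b = b * ⁅a, d⁆ := h.Z0_central h1 hb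
  have h3 : ⁅a, b * d⁆ = ⁅a, b⁆ * (b * ⁅a, d⁆ * b⁻¹) := by
    simp only [commutatorElement_def]; group
  rw [h3, ← h2, mul_inv_cancel_right]

/-- `Z(R) ≤ Z₀` if `R` is nonabelian -/
theorem center_le (h : D2 k Q R L N₁) (hna : ¬ R ≤ Subgroup.centralizer (R : Set G)) :
    R ⊓ Subgroup.centralizer (R : Set G) ≤ Z0 R L := by
  refine h.le_Z0 inf_le_left ?_ ?_
  · intro n hn
    refine norm_inf (h.N₁R hn) ?_
    have key : ∀ n ∈ N₁, ∀ x ∈ Subgroup.centralizer (R : Set G), n * x * n⁻¹ ∈ Subgroup.centralizer (R : Set G) := by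
      intro n hn x hx l hl
      have h1 : n⁻¹ * l * n ∈ R := by
        have := (Subgroup.mem_normalizer_iff.1 (h.N₁R (N₁.inv_mem hn)) l).1 hl
        simpa using this
      have h2 := hx _ h1
      calc l * (n * x * n⁻¹) = n * ((n⁻¹ * l * n) * x) * n⁻¹ := by group
        _ = n * (x * (n⁻¹ * l * n)) * n⁻¹ := by rw [h2]
        _ = _ := by group
    rw [Subgroup.mem_normalizer_iff]
    intro x
    refine ⟨key n hn x, fun hx => ?_⟩
    have := key n⁻¹ (N₁.inv_mem hn) _ hx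
    have h3 : n⁻¹ * (n * x * n⁻¹) * n⁻¹⁻¹ = x := by group
    rwa [h3] at this
  · intro he
    exact hna (inf_eq_left.1 he)

/-- case 5a -/
theorem contra_of_comm (h : D2 k Q R L N₁) {x : G} (hx : x ∈ N₁) (hx2 : IsTwo x)
    (hZ : ∀ g ∈ N₁, ∀ c ∈ Z0 R L, (g * x ^ 2 ^ k * g⁻¹) * c = c * (g * x ^ 2 ^ k * g⁻¹))
    (hcomm : ∀ m ∈ R, ∀ c ∈ R, ⁅c, x ^ 2 ^ k⁆ ∈ Z0 R L →
      ((m * x) ^ 2 ^ k * (x ^ 2 ^ k)⁻¹) * c = c * ((m * x) ^ 2 ^ k * (x ^ 2 ^ k)⁻¹))
    (hna : ¬ R ≤ Subgroup.centralizer (R : Set G)) :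
    ∀ m ∈ R, (m * x) ^ 2 ^ k * (x ^ 2 ^ k)⁻¹ ∈ Z0 R L := by
  have : Fact (Nat.Prime 2) := ⟨Nat.prime_two⟩
  obtain ⟨M, i1, i2, i3, π, ρ, d⟩ := h.exists_MD
  obtain ⟨Z, j1, j2, πZ, -, hZadd, hZker, -⟩ :=
    SectionModule.exists_module 2 (Z0 R L) ⊥
      (fun a ha c hc => by
        rw [Subgroup.mem_bot] at hc ⊢
        rw [hc]; group)
      (fun a ha b hb => by
        rw [Subgroup.mem_bot]
        have h1 : a * b = b * a := h.Z0_central ha hb.1
        rw [h1]; group)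
      (fun a ha => by rw [Subgroup.mem_bot]; exact h.Z0_sq ha)
  have hcz : ∀ a b : ↥R, ⁅(a : G), (b : G)⁆ ∈ Z0 R L := fun a b =>
    h.comm_RR (Subgroup.commutator_mem_commutator a.2 b.2)
  have hπZ : ∀ (a b : G) (ha : a ∈ Z0 R L) (hb : b ∈ Z0 R L), a = b → πZ ⟨a, ha⟩ = πZ ⟨b, hb⟩ := by
    intro a b ha hb hab
    subst hab
    rfl
  obtain ⟨B, hB⟩ := exists_bilin π d.surj d.add (fun a b => πZ ⟨⁅(a : G), (b : G)⁆, hcz a b⟩)
    (fun a b e => by
      rw [← hZadd]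
      exact hπZ _ _ _ _ (h.comm_mul_left a.2 b.2 e.2))
    (fun a b e => by
      rw [← hZadd]
      exact hπZ _ _ _ _ (h.comm_mul_right a.2 b.2 e.2))
    (fun a b ha => by
      rw [hZker, Subgroup.mem_bot]
      exact commutatorElement_eq_one_iff_mul_comm.2 (h.Z0_central ((d.ker a).1 ha) b.2))
    (fun a b hb => by
      rw [hZker, Subgroup.mem_bot]
      exact commutatorElement_eq_one_iff_mul_comm.2 (h.Z0_central ((d.ker b).1 hb) a.2).symm)
  have hB0 : ∀ a b : ↥R, B (π a) (π b) = 0 ↔ (a : G) * b = b * a := by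
    intro a b
    rw [hB, hZker, Subgroup.mem_bot]
    exact commutatorElement_eq_one_iff_mul_comm
  have hN := H557.PartS.partS ρ (d.irr h) B
    (fun m => by
      obtain ⟨a, rfl⟩ := d.surj m
      rw [hB0])
    (fun m hm => by
      obtain ⟨a, rfl⟩ := d.surj m
      rw [d.ker]
      refine h.center_le hna ⟨a.2, fun b hb => ?_⟩
      have := (hB0 a ⟨b, hb⟩).1 (hm _)
      exact this.symm)
    ⟨x, hx⟩ (by obtain ⟨n, hn⟩ := hx2; exact ⟨n, Subtype.ext hn⟩) k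
    (fun g m m' => by
      obtain ⟨a, rfl⟩ := d.surj m
      obtain ⟨b, rfl⟩ := d.surj m'
      rw [d.act, d.act, hB, hB]
      apply hπZ
      have h1 := hZ g g.2 _ (hcz a b)
      set y : G := (g : G) * x ^ 2 ^ k * (g : G)⁻¹ with hy
      show ⁅y * a * y⁻¹, y * b * y⁻¹⁆ = ⁅(a : G), (b : G)⁆
      have h2 : ⁅y * a * y⁻¹, y * b * y⁻¹⁆ = y * ⁅(a : G), (b : G)⁆ * y⁻¹ := by
        simp only [commutatorElement_def]; group
      rw [h2, h1]; group)
    (fun m c hc => by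
      obtain ⟨a, rfl⟩ := d.surj m
      obtain ⟨b, rfl⟩ := d.surj c
      rw [← d.pi_eq ⟨x, hx⟩ a (2 ^ k) (d.mem_R _ _ _), hB0]
      refine hcomm a a.2 b b.2 ?_
      have h1 := (d.act_eq_iff _ b).1 hc
      have h2 := Subgroup.inv_mem _ h1
      have h3 : ((x ^ 2 ^ k) * (b : G) * (x ^ 2 ^ k)⁻¹ * (b : G)⁻¹)⁻¹ = ⁅(b : G), x ^ 2 ^ k⁆ := by
        rw [commutatorElement_def]; group
      rw [← h3]
      exact h2)
  intro m hm
  have h1 := d.pi_eq ⟨x, hx⟩ ⟨m, hm⟩ (2 ^ k) (d.mem_R _ _ _)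
  rw [hN, LinearMap.zero_apply, d.ker] at h1
  exact h1

end D2

end

end Cfsg.Agent.H552
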