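import Mathlib
set_option linter.all false

/-!
# The lower `2`-series inside an ambient finite group (helper552; for S4258)

For a subgroup `H` of a finite group `G`:
* `twoGen H` = `O^{2'}(H)` is generated by the elements of `H` of `2`-power order;
* `oddGen H` = `O^2(H)` is generated by the elements of `H` of odd order;
* `T 0 H = H`, `T (k + 1) H = oddGen (twoGen (T k H))`.

`H` has `2`-length at most `k` iff `T k H` has odd order.
-/

set_option autoImplicit false

namespace Cfsg.Agent.H552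

open scoped Pointwise

/-- `x` has `2`-power order -/
def IsTwo {G : Type*} [Group G] (x : G) : Prop := ∃ k : ℕ, x ^ 2 ^ k = 1

/-- `O^{2'}(H)` -/
def twoGen {G : Type*} [Group G] (H : Subgroup G) : Subgroup G :=
  Subgroup.closure {x | x ∈ H ∧ IsTwo x}

/-- `O^2(H)` -/
def oddGen {G : Type*} [Group G] (H : Subgroup G) : Subgroup G :=
  Subgroup.closure {x | x ∈ H ∧ Odd (orderOf x)}

/-- the lower `2`-series -/
def T {G : Type*} [Group G] : ℕ → Subgroup G → Subgroup G
  | 0, H => H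
  | k + 1, H => oddGen (twoGen (T k H))

section Basic

variable {G : Type*} [Group G]

@[simp] theorem T_zero (H : Subgroup G) : T 0 H = H := rfl

theorem T_succ (k : ℕ) (H : Subgroup G) : T (k + 1) H = oddGen (twoGen (T k H)) := rfl

theorem twoGen_le (H : Subgroup G) : twoGen H ≤ H :=
  (Subgroup.closure_le _).2 fun _ hx => hx.1

theorem oddGen_le (H : Subgroup G) : oddGen H ≤ H :=
  (Subgroup.closure_le _).2 fun _ hx => hx.1

theorem mem_twoGen {H : Subgroup G} {x : G} (hx : x ∈ H) (h : IsTwo x) : x ∈ twoGen H :=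
  Subgroup.subset_closure ⟨hx, h⟩

theorem mem_oddGen {H : Subgroup G} {x : G} (hx : x ∈ H) (h : Odd (orderOf x)) : x ∈ oddGen H :=
  Subgroup.subset_closure ⟨hx, h⟩

theorem twoGen_mono {H K : Subgroup G} (h : H ≤ K) : twoGen H ≤ twoGen K :=
  Subgroup.closure_mono fun _ hx => ⟨h hx.1, hx.2⟩

theorem oddGen_mono {H K : Subgroup G} (h : H ≤ K) : oddGen H ≤ oddGen K :=
  Subgroup.closure_mono fun _ hx => ⟨h hx.1, hx.2⟩

theorem T_mono (k : ℕ) {H K : Subgroup G} (h : H ≤ K) : T k H ≤ T k K := by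
  induction k with
  | zero => exact h
  | succ k ih => exact oddGen_mono (twoGen_mono ih)

theorem T_succ_le (k : ℕ) (H : Subgroup G) : T (k + 1) H ≤ T k H :=
  (oddGen_le _).trans (twoGen_le _)

theorem T_le (k : ℕ) (H : Subgroup G) : T k H ≤ H := by
  induction k with
  | zero => exact le_rfl
  | succ k ih => exact (T_succ_le k H).trans ih

theorem twoGen_twoGen (H : Subgroup G) : twoGen (twoGen H) = twoGen H := by
  refine le_antisymm (twoGen_le _) ?_
  refine (Subgroup.closure_le _).2 fun x hx => ?_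
  exact mem_twoGen (mem_twoGen hx.1 hx.2) hx.2

theorem oddGen_oddGen (H : Subgroup G) : oddGen (oddGen H) = oddGen H := by
  refine le_antisymm (oddGen_le _) ?_
  refine (Subgroup.closure_le _).2 fun x hx => ?_
  exact mem_oddGen (mem_oddGen hx.1 hx.2) hx.2

theorem oddGen_T_succ (k : ℕ) (H : Subgroup G) : oddGen (T (k + 1) H) = T (k + 1) H :=
  oddGen_oddGen _

theorem T_add (j k : ℕ) (H : Subgroup G) : T (j + k) H = T j (T k H) := by
  induction j with
  | zero => rw [Nat.zero_add]; rfl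
  | succ j ih =>
    rw [Nat.add_right_comm, T_succ, T_succ, ih]

end Basic

section Two

variable {G : Type*} [Group G]

theorem IsTwo.map {G' : Type*} [Group G'] (f : G →* G') {x : G} (h : IsTwo x) : IsTwo (f x) := by
  obtain ⟨k, hk⟩ := h
  exact ⟨k, by rw [← map_pow, hk, map_one]⟩

theorem isTwo_one : IsTwo (1 : G) := ⟨0, by simp⟩

theorem IsTwo.pow {x : G} (h : IsTwo x) (n : ℕ) : IsTwo (x ^ n) := by
  obtain ⟨k, hk⟩ := h
  exact ⟨k, by rw [← pow_mul, mul_comm, pow_mul, hk, one_pow]⟩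

theorem IsTwo.inv {x : G} (h : IsTwo x) : IsTwo x⁻¹ := by
  obtain ⟨k, hk⟩ := h
  exact ⟨k, by rw [inv_pow, hk, inv_one]⟩

theorem IsTwo.conj {x : G} (h : IsTwo x) (g : G) : IsTwo (g * x * g⁻¹) := by
  obtain ⟨k, hk⟩ := h
  exact ⟨k, by rw [conj_pow, hk, mul_one, mul_inv_cancel]⟩

theorem isTwo_iff_orderOf {x : G} : IsTwo x ↔ ∃ k, orderOf x = 2 ^ k := by
  constructor
  · rintro ⟨k, hk⟩
    obtain ⟨j, _, hj⟩ := (Nat.dvd_prime_pow Nat.prime_two).1 (orderOf_dvd_of_pow_eq_one hk)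
    exact ⟨j, hj⟩
  · rintro ⟨k, hk⟩
    exact ⟨k, by rw [← hk, pow_orderOf_eq_one]⟩

theorem isTwo_of_isPGroup {P : Subgroup G} (hP : IsPGroup 2 P) {x : G} (hx : x ∈ P) :
    IsTwo x := by
  obtain ⟨k, hk⟩ := hP ⟨x, hx⟩
  exact ⟨k, by simpa using congrArg Subtype.val hk⟩

theorem isPGroup_of_isTwo {P : Subgroup G} (h : ∀ x ∈ P, IsTwo x) : IsPGroup 2 P := by
  intro x
  obtain ⟨k, hk⟩ := h x x.2
  exact ⟨k, Subtype.ext (by simpa using hk)⟩

/-- a `2`-element of odd order is trivial -/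
theorem eq_one_of_isTwo_of_odd {x : G} (h : IsTwo x) (h' : Odd (orderOf x)) : x = 1 := by
  obtain ⟨k, hk⟩ := isTwo_iff_orderOf.1 h
  rw [hk] at h'
  have : k = 0 := by
    by_contra hk0
    have h2 : Even (2 ^ k) := (Nat.even_pow.2 ⟨even_two, hk0⟩)
    exact (Nat.not_even_iff_odd.2 h') h2
  rw [this, pow_zero, orderOf_eq_one_iff] at hk
  exact hk

/-- every element of finite order is the product of commuting powers of itself, one of odd order and
one of `2`-power order -/
theorem exists_odd_mul_two [Finite G] (x : G) :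
    ∃ m n : ℕ, Odd (orderOf (x ^ m)) ∧ IsTwo (x ^ n) ∧ x = x ^ m * x ^ n := by
  have hpos : 0 < orderOf x := orderOf_pos x
  obtain ⟨k, m, hm, hx⟩ := Nat.exists_eq_two_pow_mul_odd hpos.ne'
  have hcop : Nat.Coprime (2 ^ k) m := Nat.Coprime.pow_left k (Nat.coprime_two_left.2 hm)
  -- Bezout
  obtain ⟨a, ha⟩ : ∃ a : ℕ, a * 2 ^ k ≡ 1 [MOD m] := by
    rcases Nat.eq_or_lt_of_le (show 1 ≤ m from hm.pos) with h1 | h1
    · exact ⟨0, by rw [← h1]; exact Nat.modEq_one⟩
    · obtain ⟨a, _, ha⟩ := Nat.exists_mul_mod_eq_one_of_coprime (k := m) (n := 2 ^ k) hcop h1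
      refine ⟨a, ?_⟩
      rw [Nat.ModEq, mul_comm, ha, Nat.mod_eq_of_lt h1]
  obtain ⟨b, hb⟩ : ∃ b : ℕ, b * m ≡ 1 [MOD 2 ^ k] := by
    rcases Nat.eq_or_lt_of_le (Nat.one_le_two_pow (n := k)) with h1 | h1
    · exact ⟨0, by rw [← h1]; exact Nat.modEq_one⟩
    · obtain ⟨a, _, ha⟩ := Nat.exists_mul_mod_eq_one_of_coprime (k := 2 ^ k) (n := m) hcop.symm h1
      refine ⟨a, ?_⟩
      rw [Nat.ModEq, mul_comm, ha, Nat.mod_eq_of_lt h1]
  refine ⟨a * 2 ^ k, b * m, ?_, ⟨k, ?_⟩, ?_⟩
  · have h1 : (x ^ (a * 2 ^ k)) ^ m = 1 := by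
      rw [← pow_mul, mul_assoc, ← hx, mul_comm, pow_mul, pow_orderOf_eq_one, one_pow]
    exact Odd.of_dvd_nat hm (orderOf_dvd_of_pow_eq_one h1)
  · rw [← pow_mul, mul_assoc, mul_comm m, ← hx, mul_comm, pow_mul, pow_orderOf_eq_one, one_pow]
  · rw [← pow_add]
    conv_lhs => rw [← pow_one x]
    rw [pow_eq_pow_iff_modEq, hx]
    refine (Nat.modEq_and_modEq_iff_modEq_mul hcop).1 ⟨?_, ?_⟩
    · have : a * 2 ^ k + b * m ≡ 0 + 1 [MOD 2 ^ k] :=
        Nat.ModEq.add ((Nat.modEq_zero_iff_dvd).2 (Dvd.intro_left a rfl)) hb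
      rw [Nat.zero_add] at this
      exact this.symm
    · have : a * 2 ^ k + b * m ≡ 1 + 0 [MOD m] :=
        Nat.ModEq.add ha ((Nat.modEq_zero_iff_dvd).2 (Dvd.intro_left b rfl))
      rw [Nat.add_zero] at this
      exact this.symm

/-- a lift of `2`-power order -/
theorem exists_two_lift [Finite G] {G' : Type*} [Group G'] (f : G →* G') (x : G)
    (h : IsTwo (f x)) : ∃ n : ℕ, IsTwo (x ^ n) ∧ f (x ^ n) = f x := by
  obtain ⟨m, n, hm, hn, hx⟩ := exists_odd_mul_two x
  refine ⟨n, hn, ?_⟩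
  have h1 : Odd (orderOf (f (x ^ m))) := Odd.of_dvd_nat hm (orderOf_map_dvd f _)
  have h2 : IsTwo (f (x ^ m)) := by rw [map_pow]; exact h.pow m
  have h3 := eq_one_of_isTwo_of_odd h2 h1
  conv_rhs => rw [hx]
  rw [map_mul, h3, one_mul]

/-- a lift of odd order -/
theorem exists_odd_lift [Finite G] {G' : Type*} [Group G'] (f : G →* G') (x : G)
    (h : Odd (orderOf (f x))) : ∃ n : ℕ, Odd (orderOf (x ^ n)) ∧ f (x ^ n) = f x := by
  obtain ⟨m, n, hm, hn, hx⟩ := exists_odd_mul_two x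
  refine ⟨m, hm, ?_⟩
  have h1 : Odd (orderOf (f (x ^ n))) := by
    rw [map_pow]; exact Odd.of_dvd_nat h (orderOf_pow_dvd n)
  have h3 := eq_one_of_isTwo_of_odd (hn.map f) h1
  conv_rhs => rw [hx]
  rw [map_mul, h3, mul_one]

theorem twoGen_map [Finite G] {G' : Type*} [Group G'] (f : G →* G') (H : Subgroup G) :
    (twoGen H).map f = twoGen (H.map f) := by
  refine le_antisymm ?_ ?_
  · rw [Subgroup.map_le_iff_le_comap]
    refine (Subgroup.closure_le _).2 fun x hx => ?_
    exact mem_twoGen ⟨x, hx.1, rfl⟩ (hx.2.map f)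
  · refine (Subgroup.closure_le _).2 ?_
    rintro _ ⟨⟨x, hx, rfl⟩, h⟩
    obtain ⟨n, hn, hfn⟩ := exists_two_lift f x h
    rw [← hfn]
    exact ⟨x ^ n, mem_twoGen (H.pow_mem hx n) hn, rfl⟩

theorem oddGen_map [Finite G] {G' : Type*} [Group G'] (f : G →* G') (H : Subgroup G) :
    (oddGen H).map f = oddGen (H.map f) := by
  refine le_antisymm ?_ ?_
  · rw [Subgroup.map_le_iff_le_comap]
    refine (Subgroup.closure_le _).2 fun x hx => ?_
    exact mem_oddGen ⟨x, hx.1, rfl⟩ (Odd.of_dvd_nat hx.2 (orderOf_map_dvd f x))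
  · refine (Subgroup.closure_le _).2 ?_
    rintro _ ⟨⟨x, hx, rfl⟩, h⟩
    obtain ⟨n, hn, hfn⟩ := exists_odd_lift f x h
    rw [← hfn]
    exact ⟨x ^ n, mem_oddGen (H.pow_mem hx n) hn, rfl⟩

theorem T_map [Finite G] {G' : Type*} [Group G'] (f : G →* G') (k : ℕ) (H : Subgroup G) :
    (T k H).map f = T k (H.map f) := by
  induction k with
  | zero => rfl
  | succ k ih => rw [T_succ, oddGen_map, twoGen_map, ih, T_succ]

/-- `T k` inside a subgroup -/
theorem T_subtype [Finite G] (k : ℕ) (H : Subgroup G) : (T k (⊤ : Subgroup H)).map H.subtype = T k H := by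
  rw [T_map, ← MonoidHom.range_eq_map, Subgroup.range_subtype]

theorem T_map_top [Finite G] {G' : Type*} [Group G'] (f : G →* G') (hf : Function.Surjective f) (k : ℕ) :
    (T k (⊤ : Subgroup G)).map f = T k (⊤ : Subgroup G') := by
  rw [T_map, Subgroup.map_top_of_surjective f hf]

end Two

section Normal

variable {G : Type*} [Group G] [Finite G]

/-- whoever normalizes `H` normalizes `T k H` -/
theorem normalizer_le_normalizer_T (k : ℕ) (H : Subgroup G) :
    Subgroup.normalizer (H : Set G) ≤ Subgroup.normalizer ((T k H : Subgroup G) : Set G) := by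
  intro g hg
  have h1 : H.map (MulAut.conj g).toMonoidHom = H := by
    ext x
    rw [Subgroup.mem_map]
    constructor
    · rintro ⟨y, hy, rfl⟩
      exact (Subgroup.mem_normalizer_iff.1 hg y).1 hy
    · intro hx
      refine ⟨g⁻¹ * x * g, ?_, by simp [mul_assoc]⟩
      rw [Subgroup.mem_normalizer_iff.1 hg]
      simpa [mul_assoc] using hx
  have h2 := T_map (MulAut.conj g).toMonoidHom k H
  rw [h1] at h2
  rw [Subgroup.mem_normalizer_iff]
  intro x
  constructor
  · intro hx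
    rw [← h2]
    exact ⟨x, hx, rfl⟩
  · intro hx
    rw [← h2] at hx
    obtain ⟨y, hy, hyx⟩ := hx
    have : y = x := by
      have h3 : g * y * g⁻¹ = g * x * g⁻¹ := hyx
      simpa using h3
    rwa [← this]

theorem T_normal (k : ℕ) {H : Subgroup G} (hH : H.Normal) : (T k H).Normal := by
  rw [← Subgroup.normalizer_eq_top_iff] at hH ⊢
  rw [eq_top_iff, ← hH]
  exact normalizer_le_normalizer_T k H

theorem twoGen_normalizer (H : Subgroup G) :
    Subgroup.normalizer (H : Set G) ≤ Subgroup.normalizer ((twoGen H : Subgroup G) : Set G) := by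
  intro g hg
  have h1 : H.map (MulAut.conj g).toMonoidHom = H := by
    ext x
    rw [Subgroup.mem_map]
    constructor
    · rintro ⟨y, hy, rfl⟩
      exact (Subgroup.mem_normalizer_iff.1 hg y).1 hy
    · intro hx
      refine ⟨g⁻¹ * x * g, ?_, by simp [mul_assoc]⟩
      rw [Subgroup.mem_normalizer_iff.1 hg]
      simpa [mul_assoc] using hx
  have h2 := twoGen_map (MulAut.conj g).toMonoidHom H
  rw [h1] at h2
  rw [Subgroup.mem_normalizer_iff]
  intro x
  constructor
  · intro hx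
    rw [← h2]
    exact ⟨x, hx, rfl⟩
  · intro hx
    rw [← h2] at hx
    obtain ⟨y, hy, hyx⟩ := hx
    have : y = x := by
      have h3 : g * y * g⁻¹ = g * x * g⁻¹ := hyx
      simpa using h3
    rwa [← this]

theorem twoGen_normal {H : Subgroup G} (hH : H.Normal) : (twoGen H).Normal := by
  rw [← Subgroup.normalizer_eq_top_iff] at hH ⊢
  rw [eq_top_iff, ← hH]
  exact twoGen_normalizer H

end Normal

end Cfsg.Agent.H552
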