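import Mathlib
import Cfsg.Agent.H552.Series
set_option linter.all false

/-!
# Sylow subgroups of subgroups of an ambient group (helper552)
-/

set_option autoImplicit false
set_option linter.unusedSectionVars false

namespace Cfsg.Agent.H552

variable {G : Type*} [Group G] [Finite G]

/-- existence of a Sylow `p`-subgroup of the subgroup `U` -/
theorem exists_sylow_of (p : ℕ) [Fact p.Prime] (U : Subgroup G) :
    ∃ R ≤ U, IsPGroup p R ∧ ¬ p ∣ R.relIndex U := by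
  obtain ⟨P⟩ : Nonempty (Sylow p U) := inferInstance
  refine ⟨(P : Subgroup U).map U.subtype, Subgroup.map_subtype_le _, P.2.map _, ?_⟩
  rw [Subgroup.relIndex, Subgroup.subgroupOf,
    Subgroup.comap_map_eq_self_of_injective U.subtype_injective]
  exact P.not_dvd_index

/-- every `p`-subgroup of `U` is conjugate in `U` to a subgroup of `R` -/
theorem exists_conj_le {p : ℕ} [Fact p.Prime] {U R : Subgroup G} (hRU : R ≤ U) (hR : IsPGroup p R)
    (hidx : ¬ p ∣ R.relIndex U) {S : Subgroup G} (hSU : S ≤ U) (hS : IsPGroup p S) :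
    ∃ g ∈ U, ∀ x ∈ S, g * x * g⁻¹ ∈ R := by
  classical
  have hR' : IsPGroup p (R.subgroupOf U) := by
    rintro ⟨x, hx⟩
    obtain ⟨k, hk⟩ := hR ⟨(x : G), Subgroup.mem_subgroupOf.1 hx⟩
    refine ⟨k, Subtype.ext (Subtype.ext ?_)⟩
    have := congrArg Subtype.val hk
    simpa using this
  let P : Sylow p U := hR'.toSylow hidx
  have hS' : IsPGroup p (S.subgroupOf U) := by
    rintro ⟨x, hx⟩
    obtain ⟨k, hk⟩ := hS ⟨(x : G), Subgroup.mem_subgroupOf.1 hx⟩
    refine ⟨k, Subtype.ext (Subtype.ext ?_)⟩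
    have := congrArg Subtype.val hk
    simpa using this
  obtain ⟨Q, hQ⟩ := hS'.exists_le_sylow
  obtain ⟨g, hg⟩ := MulAction.exists_smul_eq U Q P
  refine ⟨g, g.2, fun x hx => ?_⟩
  have h1 : (⟨x, hSU hx⟩ : U) ∈ (Q : Subgroup U) := hQ (by
    rw [Subgroup.mem_subgroupOf]; exact hx)
  have h2 : g * ⟨x, hSU hx⟩ * g⁻¹ ∈ (P : Subgroup U) := by
    rw [← hg, Sylow.coe_subgroup_smul]
    exact Subgroup.smul_mem_pointwise_smul _ (MulAut.conj g) _ h1
  have h3 : g * ⟨x, hSU hx⟩ * g⁻¹ ∈ R.subgroupOf U := h2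
  rw [Subgroup.mem_subgroupOf] at h3
  exact h3

/-- equality of a conjugate from an inclusion of conjugates, given the cardinalities -/
theorem map_conj_eq_of_le {R S : Subgroup G} {g : G} (h : ∀ x ∈ S, g * x * g⁻¹ ∈ R)
    (hc : Nat.card R ≤ Nat.card S) : S.map (MulAut.conj g).toMonoidHom = R := by
  have hle : S.map (MulAut.conj g).toMonoidHom ≤ R := by
    rintro _ ⟨x, hx, rfl⟩
    exact h x hx
  refine Subgroup.eq_of_le_of_card_ge hle ?_
  rwa [Subgroup.card_map_of_injective (MulAut.conj g).injective]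

/-- Frattini -/
theorem frattini {p : ℕ} [Fact p.Prime] {U R : Subgroup G} (hRU : R ≤ U) (hR : IsPGroup p R)
    (hidx : ¬ p ∣ R.relIndex U) (hU : U.Normal) : Subgroup.normalizer (R : Set G) ⊔ U = ⊤ := by
  rw [eq_top_iff]
  intro g _
  have h1 : R.map (MulAut.conj g).toMonoidHom ≤ U := by
    rintro _ ⟨x, hx, rfl⟩
    exact hU.conj_mem x (hRU hx) g
  obtain ⟨u, hu, hu'⟩ := exists_conj_le hRU hR hidx h1 (hR.map _)
  have h2 : ∀ x ∈ R, (u * g) * x * (u * g)⁻¹ ∈ R := by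
    intro x hx
    have := hu' _ ⟨x, hx, rfl⟩
    have h3 : u * (g * x * g⁻¹) * u⁻¹ ∈ R := this
    have h4 : (u * g) * x * (u * g)⁻¹ = u * (g * x * g⁻¹) * u⁻¹ := by group
    rwa [h4]
  have h3 : u * g ∈ Subgroup.normalizer (R : Set G) := by
    have h4 := map_conj_eq_of_le h2 le_rfl
    rw [Subgroup.mem_normalizer_iff]
    intro x
    refine ⟨h2 x, fun hx => ?_⟩
    have h5 : (u * g) * x * (u * g)⁻¹ ∈ R.map (MulAut.conj (u * g)).toMonoidHom := by rwa [h4]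
    obtain ⟨y, hy, hyx⟩ := h5
    have h6 : (u * g) * y * (u * g)⁻¹ = (u * g) * x * (u * g)⁻¹ := hyx
    have h7 : y = x := by simpa using h6
    rwa [← h7]
  have h4 : g = (u * g) * (g⁻¹ * u⁻¹ * g) := by group
  rw [h4]
  refine Subgroup.mul_mem_sup h3 ?_
  have h5 := hU.conj_mem u⁻¹ (U.inv_mem hu) g⁻¹
  simpa using h5

/-- elements -/
theorem exists_conj_mem {p : ℕ} [Fact p.Prime] {U R : Subgroup G} (hRU : R ≤ U) (hR : IsPGroup p R)
    (hidx : ¬ p ∣ R.relIndex U) {x : G} (hx : x ∈ U) (hp : ∃ k, x ^ p ^ k = 1) :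
    ∃ g ∈ U, g * x * g⁻¹ ∈ R := by
  have h1 : IsPGroup p (Subgroup.zpowers x) := by
    obtain ⟨k, hk⟩ := hp
    rintro ⟨_, n, rfl⟩
    refine ⟨k, Subtype.ext ?_⟩
    show (x ^ n) ^ p ^ k = 1
    rw [← zpow_natCast, ← zpow_mul, mul_comm, zpow_mul, zpow_natCast, hk, one_zpow]
  obtain ⟨g, hg, h⟩ := exists_conj_le hRU hR hidx (by rwa [Subgroup.zpowers_le]) h1
  exact ⟨g, hg, h x (Subgroup.mem_zpowers x)⟩

/-! ### parity -/

theorem odd_orderOf_of_mem {Q : Subgroup G} (hQ : Odd (Nat.card Q)) {a : G} (ha : a ∈ Q) :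
    Odd (orderOf a) :=
  Odd.of_dvd_nat hQ (Subgroup.orderOf_dvd_natCard Q ha)

theorem odd_card_mono {H K : Subgroup G} (h : H ≤ K) (hK : Odd (Nat.card K)) :
    Odd (Nat.card H) :=
  Odd.of_dvd_nat hK (Subgroup.card_dvd_of_le h)

/-- in a normal subgroup of odd index lie all `2`-elements -/
theorem mem_of_eq_mul {N H : Subgroup G} (hNH : N ≤ H) (hn : H ≤ Subgroup.normalizer (N : Set G))
    {h a : G} (hh : h ∈ N) (ha : a ∈ H) (hodd : Odd (orderOf a)) (hr2 : IsTwo (h * a)) :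
    h * a ∈ N := by
  have hnorm : (N.subgroupOf H).Normal := Subgroup.normal_subgroupOf_iff_le_normalizer hNH |>.2 hn
  let f : H →* H ⧸ N.subgroupOf H := QuotientGroup.mk' _
  have h1 : f ⟨h * a, H.mul_mem (hNH hh) ha⟩ = f ⟨a, ha⟩ := by
    have h2 : (⟨h * a, H.mul_mem (hNH hh) ha⟩ : H) = ⟨h, hNH hh⟩ * ⟨a, ha⟩ := rfl
    rw [h2, map_mul]
    have h3 : f ⟨h, hNH hh⟩ = 1 := (QuotientGroup.eq_one_iff _).2 (by
      rw [Subgroup.mem_subgroupOf]; exact hh)
    rw [h3, one_mul]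
  have h2 : IsTwo (f ⟨h * a, H.mul_mem (hNH hh) ha⟩) := by
    refine IsTwo.map f ?_
    obtain ⟨j, hj⟩ := hr2
    exact ⟨j, Subtype.ext hj⟩
  have h3 : Odd (orderOf (f ⟨h * a, H.mul_mem (hNH hh) ha⟩)) := by
    rw [h1]
    refine Odd.of_dvd_nat ?_ (orderOf_map_dvd f _)
    rwa [Subgroup.orderOf_mk]
  have h4 := eq_one_of_isTwo_of_odd h2 h3
  have h5 := (QuotientGroup.eq_one_iff _).1 h4
  rwa [Subgroup.mem_subgroupOf] at h5

/-- in a normal subgroup of `2`-power index lie all elements of odd order -/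
theorem mem_of_eq_mul_two {N H : Subgroup G} (hNH : N ≤ H)
    (hn : H ≤ Subgroup.normalizer (N : Set G))
    {h a : G} (hh : h ∈ N) (ha : a ∈ H) (hodd : Odd (orderOf (h * a))) (hr2 : IsTwo a) :
    h * a ∈ N := by
  have hnorm : (N.subgroupOf H).Normal := Subgroup.normal_subgroupOf_iff_le_normalizer hNH |>.2 hn
  let f : H →* H ⧸ N.subgroupOf H := QuotientGroup.mk' _
  have h1 : f ⟨h * a, H.mul_mem (hNH hh) ha⟩ = f ⟨a, ha⟩ := by
    have h2 : (⟨h * a, H.mul_mem (hNH hh) ha⟩ : H) = ⟨h, hNH hh⟩ * ⟨a, ha⟩ := rfl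
    rw [h2, map_mul]
    have h3 : f ⟨h, hNH hh⟩ = 1 := (QuotientGroup.eq_one_iff _).2 (by
      rw [Subgroup.mem_subgroupOf]; exact hh)
    rw [h3, one_mul]
  have h2 : IsTwo (f ⟨h * a, H.mul_mem (hNH hh) ha⟩) := by
    rw [h1]
    refine IsTwo.map f ?_
    obtain ⟨j, hj⟩ := hr2
    exact ⟨j, Subtype.ext hj⟩
  have h3 : Odd (orderOf (f ⟨h * a, H.mul_mem (hNH hh) ha⟩)) := by
    refine Odd.of_dvd_nat ?_ (orderOf_map_dvd f _)
    rwa [Subgroup.orderOf_mk]
  have h4 := eq_one_of_isTwo_of_odd h2 h3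
  have h5 := (QuotientGroup.eq_one_iff _).1 h4
  rwa [Subgroup.mem_subgroupOf] at h5

/-- a subgroup `K` containing the generators of odd order: `oddGen H` is normal in `H` with a `2`-group as
quotient -/
theorem isPGroup_quotient_oddGen (H : Subgroup G) [hn : ((oddGen H).subgroupOf H).Normal] :
    IsPGroup 2 (H ⧸ (oddGen H).subgroupOf H) := by
  intro x
  obtain ⟨x, rfl⟩ := QuotientGroup.mk'_surjective _ x
  obtain ⟨m, n, hm, ⟨k, hk⟩, hx⟩ := exists_odd_mul_two x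
  refine ⟨k, ?_⟩
  have h1 : QuotientGroup.mk' ((oddGen H).subgroupOf H) (x ^ m) = 1 := by
    refine (QuotientGroup.eq_one_iff _).2 ?_
    rw [Subgroup.mem_subgroupOf]
    refine mem_oddGen (x ^ m).2 ?_
    rwa [Subgroup.orderOf_coe]
  rw [hx, map_mul, h1, one_mul, ← map_pow, hk, map_one]

end Cfsg.Agent.H552
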