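import Mathlib
import Cfsg.Prelude.Def_Local
import Cfsg.Agent.H552.Syl
import Cfsg.Agent.H552.Defs
import Cfsg.Agent.S0022
import Cfsg.Agent.S0026
import Cfsg.Agent.S0027
import Cfsg.Agent.S0055
set_option linter.all false

/-!
# Structure of the critical groups (helper552; for S4258), first part
-/

set_option autoImplicit false
set_option linter.unusedSectionVars false
set_option linter.unusedVariables false
set_option linter.style.haveILetI false

universe u

namespace Cfsg.Agent.H552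

open scoped commutatorElement

section KL

variable {G : Type*} [Group G] [Finite G]

theorem le_normalizer_T (k : ℕ) (H : Subgroup G) :
    H ≤ Subgroup.normalizer ((T k H : Subgroup G) : Set G) :=
  Subgroup.le_normalizer.trans (normalizer_le_normalizer_T k H)

theorem le_normalizer_twoGen_T (k : ℕ) (H : Subgroup G) :
    H ≤ Subgroup.normalizer ((twoGen (T k H) : Subgroup G) : Set G) :=
  (le_normalizer_T k H).trans (twoGen_normalizer _)

/-- a commutator of `Q₁` and a `2`-group contained in `T k H` -/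
theorem KL1 (k : ℕ) {H Q₁ R : Subgroup G} (hR : ∀ r ∈ R, IsTwo r) (hRT : R ≤ T k H) (hQ₁ : Q₁ ≤ H)
    (hodd : Odd (Nat.card Q₁)) (hn : R ≤ Subgroup.normalizer (Q₁ : Set G)) :
    ⁅Q₁, R⁆ ≤ T (k + 1) H := by
  rw [Subgroup.commutator_le]
  intro q hq r hr
  have h1 : r ∈ twoGen (T k H) := mem_twoGen (hRT hr) (hR r hr)
  have h2 : q * r * q⁻¹ ∈ twoGen (T k H) :=
    (Subgroup.mem_normalizer_iff.1 (le_normalizer_twoGen_T k H (hQ₁ hq)) r).1 h1
  have h3 : ⁅q, r⁆ ∈ twoGen (T k H) := Subgroup.mul_mem _ h2 (Subgroup.inv_mem _ h1)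
  have h4 : ⁅q, r⁆ ∈ Q₁ := by
    have h5 : r * q⁻¹ * r⁻¹ ∈ Q₁ :=
      (Subgroup.mem_normalizer_iff.1 (hn hr) q⁻¹).1 (Q₁.inv_mem hq)
    have h6 : ⁅q, r⁆ = q * (r * q⁻¹ * r⁻¹) := by rw [commutatorElement_def]; group
    rw [h6]
    exact Q₁.mul_mem hq h5
  exact mem_oddGen h3 (odd_orderOf_of_mem hodd h4)

/-- `2`-elements of `T k ⊤` contained in a supplement of an odd normal subgroup -/
theorem KL2 (k : ℕ) {H Q : Subgroup G} [Q.Normal] (hodd : Odd (Nat.card Q)) (hHQ : H ⊔ Q = ⊤)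
    {r : G} (hr : r ∈ T k (⊤ : Subgroup G)) (hrH : r ∈ H) (hr2 : IsTwo r) : r ∈ T k H := by
  let f := QuotientGroup.mk' Q
  have h1 : H.map f = ⊤ := by
    rw [eq_top_iff, ← Subgroup.map_top_of_surjective f (QuotientGroup.mk'_surjective Q), ← hHQ,
      Subgroup.map_sup]
    have : Q.map f = ⊥ := by
      rw [← le_bot_iff, Subgroup.map_le_iff_le_comap]
      intro x hx
      exact (QuotientGroup.eq_one_iff x).2 hx
    rw [this, sup_bot_eq]
  have h2 : f r ∈ (T k H).map f := by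
    rw [T_map, h1, ← T_map_top f (QuotientGroup.mk'_surjective _)]
    exact ⟨r, hr, rfl⟩
  obtain ⟨h, hh, hfh⟩ := h2
  have h3 : h⁻¹ * r ∈ Q := QuotientGroup.eq.1 hfh
  have h4 : h⁻¹ * r ∈ H := H.mul_mem (H.inv_mem (T_le k H hh)) hrH
  have h5 : h * (h⁻¹ * r) = r := by group
  rw [← h5]
  exact mem_of_eq_mul (T_le k H) (le_normalizer_T k H) hh h4 (odd_orderOf_of_mem hodd h3)
    (by rwa [h5])

/-- trivial intersection of a `2`-group and a group of odd order -/
theorem eq_one_of_mem_two_odd {R Q : Subgroup G} (hR : IsPGroup 2 R) (hQ : Odd (Nat.card Q))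
    {x : G} (h1 : x ∈ R) (h2 : x ∈ Q) : x = 1 :=
  eq_one_of_isTwo_of_odd (isTwo_of_isPGroup hR h1) (odd_orderOf_of_mem hQ h2)

theorem relIndex_mul_card' {H K : Subgroup G} (h : H ≤ K) :
    H.relIndex K * Nat.card H = Nat.card K := by
  have := Subgroup.relIndex_mul_relIndex ⊥ H K bot_le h
  rw [Subgroup.relIndex_bot_left, Subgroup.relIndex_bot_left] at this
  rw [mul_comm, this]

theorem relIndex_sup_dvd (A Q : Subgroup G) [hQ : Q.Normal] :
    A.relIndex (A ⊔ Q) ∣ Nat.card Q := by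
  have h1 : A.relIndex (A ⊔ Q) * Nat.card A = Nat.card (A ⊔ Q : Subgroup G) :=
    relIndex_mul_card' le_sup_left
  have h2 : Q.relIndex (A ⊔ Q) * Nat.card Q = Nat.card (A ⊔ Q : Subgroup G) :=
    relIndex_mul_card' le_sup_right
  have h3 : Q.relIndex (A ⊔ Q) = Q.relIndex A := Subgroup.relIndex_sup_right _ _
  have h4 : (A ⊓ Q).relIndex A * Nat.card (A ⊓ Q : Subgroup G) = Nat.card A :=
    relIndex_mul_card' inf_le_left
  have h5 : (A ⊓ Q).relIndex A = Q.relIndex A := Subgroup.inf_relIndex_left _ _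
  rw [h5] at h4
  rw [← h2, h3, ← h4] at h1
  have h6 : 0 < Q.relIndex A := by
    refine Nat.pos_of_ne_zero fun h0 => ?_
    rw [h0, zero_mul] at h4
    exact Nat.card_pos.ne' h4.symm
  refine ⟨Nat.card (A ⊓ Q : Subgroup G), ?_⟩
  refine Nat.eq_of_mul_eq_mul_left h6 ?_
  rw [← h1]; ring

theorem coprime_two_odd {R Q : Subgroup G} (hR : IsPGroup 2 R) (hQ : Odd (Nat.card Q)) :
    (Nat.card R).Coprime (Nat.card Q) := by
  obtain ⟨n, hn⟩ := hR.exists_card_eq
  rw [hn]
  exact Nat.Coprime.pow_left n (Nat.coprime_two_left.2 hQ)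

end KL

section First

variable {G : Type u} [Group G] [Finite G]

/-- the data of the first part: `Q = T (k + 1) ⊤`, `U = O^{2'}(T k ⊤)`, `R` a Sylow `2`-subgroup of `U` -/
structure D1 (k : ℕ) (Q R : Subgroup G) : Prop where
  crit : Crit (k + 1) G
  hQ : Q = T (k + 1) (⊤ : Subgroup G)
  hRU : R ≤ twoGen (T k (⊤ : Subgroup G))
  hR : IsPGroup 2 R
  hidx : ¬ 2 ∣ R.relIndex (twoGen (T k (⊤ : Subgroup G)))

theorem D1.exists {k : ℕ} (h : Crit (k + 1) G) : ∃ R : Subgroup G, D1 k (T (k + 1) ⊤) R := by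
  obtain ⟨R, hR1, hR2, hR3⟩ := exists_sylow_of 2 (twoGen (T k (⊤ : Subgroup G)))
  exact ⟨R, h, rfl, hR1, hR2, hR3⟩

variable {k : ℕ} {Q R : Subgroup G}

namespace D1

theorem normalQ (h : D1 k Q R) : Q.Normal := by
  rw [h.hQ]; exact T_normal _ inferInstance

theorem normalU (h : D1 k Q R) : (twoGen (T k (⊤ : Subgroup G))).Normal :=
  twoGen_normal (T_normal _ inferInstance)

theorem oddQ (h : D1 k Q R) : Odd (Nat.card Q) := by
  rw [h.hQ]; exact h.crit.odd

theorem QU (h : D1 k Q R) : Q ≤ twoGen (T k (⊤ : Subgroup G)) := by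
  rw [h.hQ]; exact oddGen_le _

theorem QneBot (h : D1 k Q R) : Q ≠ ⊥ := by
  rw [h.hQ]; exact h.crit.ne

/-- elements of odd order of `U` lie in `Q` -/
theorem mem_Q (h : D1 k Q R) {x : G} (hx : x ∈ twoGen (T k (⊤ : Subgroup G)))
    (hodd : Odd (orderOf x)) : x ∈ Q := by
  rw [h.hQ]; exact mem_oddGen hx hodd

theorem U_eq (h : D1 k Q R) : twoGen (T k (⊤ : Subgroup G)) = Q ⊔ R := by
  set U := twoGen (T k (⊤ : Subgroup G)) with hU
  have hQU := h.QU
  have hle : Q ⊔ R ≤ U := sup_le hQU h.hRU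
  refine le_antisymm ?_ hle
  have hn : Q.Normal := h.normalQ
  have h1 : ((oddGen U).subgroupOf U).Normal := by
    have h2 : (oddGen U) = Q := by rw [h.hQ]; rfl
    rw [h2]
    exact Subgroup.Normal.subgroupOf hn U
  have h2 : IsPGroup 2 (U ⧸ (oddGen U).subgroupOf U) := isPGroup_quotient_oddGen U
  have h3 : Q = oddGen U := by rw [h.hQ]; rfl
  have h4 : ∃ n, Q.relIndex U = 2 ^ n := by
    obtain ⟨n, hn⟩ := h2.exists_card_eq
    refine ⟨n, ?_⟩
    rw [h3, Subgroup.relIndex, Subgroup.index_eq_card, hn]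
  obtain ⟨n, hn4⟩ := h4
  have h5 : (Q ⊔ R).relIndex U ∣ 2 ^ n := by
    rw [← hn4]
    exact Subgroup.relIndex_dvd_of_le_left U le_sup_left
  have h6 : (Q ⊔ R).relIndex U ∣ R.relIndex U := Subgroup.relIndex_dvd_of_le_left U le_sup_right
  obtain ⟨m, hm, hm'⟩ := (Nat.dvd_prime_pow Nat.prime_two).1 h5
  have h7 : m = 0 := by
    by_contra hm0
    apply h.hidx
    refine dvd_trans ?_ h6
    rw [hm']
    exact dvd_pow_self 2 hm0
  rw [h7, pow_zero] at hm'
  exact Subgroup.relIndex_eq_one.1 hm'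

/-- `N(R) ⊔ Q = ⊤` -/
theorem NR_sup_Q (h : D1 k Q R) : Subgroup.normalizer (R : Set G) ⊔ Q = ⊤ := by
  have h1 := frattini h.hRU h.hR h.hidx h.normalU
  rw [h.U_eq] at h1
  rw [← h1]
  apply le_antisymm
  · exact sup_le_sup le_rfl le_sup_left
  · exact sup_le le_sup_left (sup_le le_sup_right (Subgroup.le_normalizer.trans le_sup_left))

/-- a `2`-element of `U` is conjugate into `R` under `U` -/
theorem exists_conj (h : D1 k Q R) {x : G} (hx : x ∈ twoGen (T k (⊤ : Subgroup G))) (h2 : IsTwo x) :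
    ∃ g ∈ twoGen (T k (⊤ : Subgroup G)), g * x * g⁻¹ ∈ R :=
  exists_conj_mem h.hRU h.hR h.hidx hx h2

/-- if the normal subgroup `N` contains `R` then it contains `U` -/
theorem U_le_of_R_le (h : D1 k Q R) {N : Subgroup G} (hN : N.Normal) (hRN : R ≤ N) :
    twoGen (T k (⊤ : Subgroup G)) ≤ N := by
  rw [← twoGen_twoGen]
  refine (Subgroup.closure_le _).2 ?_
  rintro x ⟨hx, hx2⟩
  obtain ⟨g, hg, hgx⟩ := h.exists_conj hx hx2
  have := hN.conj_mem _ (hRN hgx) g⁻¹
  have h3 : g⁻¹ * (g * x * g⁻¹) * g⁻¹⁻¹ = x := by group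
  rwa [h3] at this

/-- `R` does not centralize `Q` -/
theorem not_cent (h : D1 k Q R) : ¬ R ≤ Subgroup.centralizer (Q : Set G) := by
  intro hc
  have hQN : Q ≤ Subgroup.normalizer (R : Set G) := by
    refine le_trans ?_ (Subgroup.centralizer_le_normalizer (R : Set G))
    rw [Subgroup.le_centralizer_iff]
    exact hc
  have hN : Subgroup.normalizer (R : Set G) = ⊤ := by
    rw [← h.NR_sup_Q, sup_eq_left.2 hQN]
  have hRn : R.Normal := Subgroup.normalizer_eq_top_iff.1 hN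
  have hR1 : R = ⊥ := h.crit.core R hRn h.hR
  have hU : twoGen (T k (⊤ : Subgroup G)) = Q := by rw [h.U_eq, hR1, sup_bot_eq]
  have h1 : twoGen (T k (⊤ : Subgroup G)) ≤ ⊥ := by
    rw [← twoGen_twoGen]
    refine (Subgroup.closure_le _).2 ?_
    rintro x ⟨hx, hx2⟩
    rw [hU] at hx
    exact eq_one_of_isTwo_of_odd hx2 (odd_orderOf_of_mem h.oddQ hx)
  exact h.QneBot (le_bot_iff.1 (h.QU.trans h1))

/-- a normal subgroup of `G` contained in `Q` and not centralized by `R` supplements `N(R)` -/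
theorem sup_normalizer (h : D1 k Q R) {Q₁ : Subgroup G} (hn : Q₁.Normal) (hle : Q₁ ≤ Q)
    (hc : ¬ R ≤ Subgroup.centralizer (Q₁ : Set G)) :
    Q₁ ⊔ Subgroup.normalizer (R : Set G) = ⊤ := by
  have hQn := h.normalQ
  by_contra hne
  have h1 : T (k + 1) (Q₁ ⊔ Subgroup.normalizer (R : Set G)) = ⊥ := h.crit.min _ hne
  have h2 : (Q₁ ⊔ Subgroup.normalizer (R : Set G)) ⊔ Q = ⊤ := by
    rw [eq_top_iff, ← h.NR_sup_Q]
    exact sup_le (le_sup_right.trans le_sup_left) le_sup_right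
  have h3 : R ≤ T k (Q₁ ⊔ Subgroup.normalizer (R : Set G)) := by
    intro r hr
    exact KL2 k h.oddQ h2 (twoGen_le _ (h.hRU hr)) (Subgroup.mem_sup_right (Subgroup.le_normalizer hr))
      (isTwo_of_isPGroup h.hR hr)
  have h4 : ⁅Q₁, R⁆ ≤ T (k + 1) (Q₁ ⊔ Subgroup.normalizer (R : Set G)) := by
    refine KL1 k (fun r hr => isTwo_of_isPGroup h.hR hr) h3 le_sup_left
      (odd_card_mono hle h.oddQ) ?_
    rw [Subgroup.normalizer_eq_top_iff.2 hn]
    exact le_top
  rw [h1, le_bot_iff, Subgroup.commutator_eq_bot_iff_le_centralizer,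
    Subgroup.le_centralizer_iff] at h4
  exact hc h4

/-- a normal subgroup of `G` contained in `Q` and not centralized by `R` is `Q` -/
theorem eq_Q (h : D1 k Q R) {Q₁ : Subgroup G} (hn : Q₁.Normal) (hle : Q₁ ≤ Q)
    (hc : ¬ R ≤ Subgroup.centralizer (Q₁ : Set G)) : Q₁ = Q := by
  have h1 := h.sup_normalizer hn hle hc
  -- `Q₁ ⊔ R` is normal
  have h2 : (Q₁ ⊔ R).Normal := by
    refine Subgroup.normalizer_eq_top_iff.1 (eq_top_iff.2 ?_)
    rw [← h1]
    refine sup_le (le_sup_left.trans Subgroup.le_normalizer) ?_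
    intro g hg
    rw [Subgroup.mem_normalizer_iff]
    have key : ∀ g ∈ Subgroup.normalizer (R : Set G), ∀ x ∈ Q₁ ⊔ R, g * x * g⁻¹ ∈ Q₁ ⊔ R := by
      intro g hg x hx
      rw [Subgroup.mem_sup_of_normal_left] at hx
      obtain ⟨a, ha, b, hb, rfl⟩ := hx
      have : g * (a * b) * g⁻¹ = (g * a * g⁻¹) * (g * b * g⁻¹) := by group
      rw [this]
      exact Subgroup.mul_mem_sup (hn.conj_mem a ha g) ((Subgroup.mem_normalizer_iff.1 hg b).1 hb)
    intro x
    refine ⟨key g hg x, fun hx => ?_⟩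
    have := key g⁻¹ (Subgroup.inv_mem _ hg) _ hx
    have h3 : g⁻¹ * (g * x * g⁻¹) * g⁻¹⁻¹ = x := by group
    rwa [h3] at this
  have h3 : twoGen (T k (⊤ : Subgroup G)) ≤ Q₁ ⊔ R := h.U_le_of_R_le h2 le_sup_right
  refine le_antisymm hle ?_
  -- odd elements of `Q₁ ⊔ R` lie in `Q₁`
  rw [h.hQ]
  refine (Subgroup.closure_le _).2 ?_
  rintro x ⟨hx, hxo⟩
  have h4 := h3 hx
  rw [Subgroup.mem_sup_of_normal_left] at h4
  obtain ⟨a, ha, b, hb, rfl⟩ := h4
  refine mem_of_eq_mul_two (H := ⊤) le_top ?_ ha (Subgroup.mem_top b) hxo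
    (isTwo_of_isPGroup h.hR hb)
  rw [Subgroup.normalizer_eq_top_iff.2 hn]

/-- a Sylow subgroup of `Q` is either normal in `G` or centralized by a conjugate of `R` -/
theorem sylow_cases (h : D1 k Q R) {q : ℕ} [Fact q.Prime] {S : Subgroup G} (hS : S ≤ Q)
    (hSq : IsPGroup q S) (hidx : ¬ q ∣ S.relIndex Q) :
    S.Normal ∨ ∃ g : G, ∀ r ∈ R, ∀ s ∈ S, (g * r * g⁻¹) * s = s * (g * r * g⁻¹) := by
  have hQn := h.normalQ
  have hUn := h.normalU
  by_cases hN : Subgroup.normalizer (S : Set G) = ⊤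
  · left; exact Subgroup.normalizer_eq_top_iff.1 hN
  right
  set N := Subgroup.normalizer (S : Set G) with hNdef
  set U := twoGen (T k (⊤ : Subgroup G)) with hU
  have h1 : T (k + 1) N = ⊥ := h.crit.min _ hN
  have h2 : N ⊔ Q = ⊤ := frattini hS hSq hidx hQn
  -- a Sylow 2-subgroup of `N ⊓ U`
  obtain ⟨R', hR'1, hR'2, hR'3⟩ := exists_sylow_of 2 (N ⊓ U)
  -- the index of `N ⊓ U` in `U` is odd
  have h3 : Odd ((N ⊓ U).relIndex U) := by
    have h4 : (N ⊓ U) ⊔ Q = U := by
      apply le_antisymm (sup_le inf_le_right h.QU)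
      intro x hx
      have hx' : x ∈ N ⊔ Q := by rw [h2]; exact Subgroup.mem_top x
      rw [Subgroup.mem_sup_of_normal_right] at hx'
      obtain ⟨a, ha, b, hb, rfl⟩ := hx'
      refine Subgroup.mul_mem_sup ⟨ha, ?_⟩ hb
      have : a * b * b⁻¹ ∈ U := U.mul_mem hx (U.inv_mem (h.QU hb))
      simpa using this
    have h5 := relIndex_sup_dvd (N ⊓ U) Q
    rw [h4] at h5
    exact Odd.of_dvd_nat h.oddQ h5
  have h4 : ¬ 2 ∣ R'.relIndex U := by
    rw [← Subgroup.relIndex_mul_relIndex R' (N ⊓ U) U hR'1 inf_le_right]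
    intro hd
    rcases (Nat.Prime.dvd_mul Nat.prime_two).1 hd with hd | hd
    · exact hR'3 hd
    · exact (Nat.not_even_iff_odd.2 h3) (even_iff_two_dvd.2 hd)
  have h5 : R' ≤ T k N := by
    intro r hr
    exact KL2 k h.oddQ h2 (twoGen_le _ (hR'1 hr).2)
      (hR'1 hr).1 (isTwo_of_isPGroup hR'2 hr)
  have h6 : ⁅S, R'⁆ ≤ T (k + 1) N := by
    refine KL1 k (fun r hr => isTwo_of_isPGroup hR'2 hr) h5 Subgroup.le_normalizer
      (odd_card_mono hS h.oddQ) ?_
    exact fun r hr => (hR'1 hr).1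
  rw [h1, le_bot_iff, Subgroup.commutator_eq_bot_iff_le_centralizer] at h6
  -- `R` is conjugate into `R'`
  obtain ⟨g, hg, hgR⟩ := exists_conj_le (hR'1.trans inf_le_right) hR'2 h4 h.hRU h.hR
  refine ⟨g, fun r hr s hs => ?_⟩
  exact (Subgroup.mem_centralizer_iff.1 (h6 hs) _ (hgR r hr)).symm ▸ rfl

theorem exists_prime (h : D1 k Q R) : ∃ q, q.Prime ∧ IsPGroup q Q := by
  by_contra hcon
  push Not at hcon
  have hQn := h.normalQ
  have key : ∀ q, q.Prime → ¬ q ∣ (Q ⊓ Subgroup.centralizer (R : Set G)).relIndex Q := by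
    intro q hq
    have := Fact.mk hq
    obtain ⟨S, hS1, hS2, hS3⟩ := exists_sylow_of q Q
    obtain ⟨g, hg⟩ : ∃ g : G, ∀ s ∈ S, g * s * g⁻¹ ∈ Q ⊓ Subgroup.centralizer (R : Set G) := by
      rcases h.sylow_cases hS1 hS2 hS3 with hn | ⟨g, hg⟩
      · by_cases hc : R ≤ Subgroup.centralizer (S : Set G)
        · refine ⟨1, fun s hs => ?_⟩
          rw [one_mul, inv_one, mul_one]
          exact ⟨hS1 hs, fun r hr => (hc hr s hs).symm⟩
        · exact absurd ((h.eq_Q hn hS1 hc) ▸ hS2) (hcon q hq)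
      · refine ⟨g⁻¹, fun s hs => ⟨hQn.conj_mem s (hS1 hs) _, ?_⟩⟩
        intro r hr
        have h1 := hg r hr s hs
        show r * (g⁻¹ * s * g⁻¹⁻¹) = (g⁻¹ * s * g⁻¹⁻¹) * r
        calc r * (g⁻¹ * s * g⁻¹⁻¹) = g⁻¹ * ((g * r * g⁻¹) * s) * g := by group
          _ = g⁻¹ * (s * (g * r * g⁻¹)) * g := by rw [h1]
          _ = _ := by group
    have hcard : Nat.card S ∣ Nat.card (Q ⊓ Subgroup.centralizer (R : Set G) : Subgroup G) := by
      have h1 : S.map (MulAut.conj g).toMonoidHom ≤ Q ⊓ Subgroup.centralizer (R : Set G) := by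
        rintro _ ⟨s, hs, rfl⟩
        exact hg s hs
      have h2 := Subgroup.card_dvd_of_le h1
      rwa [Subgroup.card_map_of_injective (MulAut.conj g).injective] at h2
    obtain ⟨m, hm⟩ := hcard
    have h1 := relIndex_mul_card' hS1
    have h2 := relIndex_mul_card' (inf_le_left : Q ⊓ Subgroup.centralizer (R : Set G) ≤ Q)
    rw [← h1, hm] at h2
    have h3 : S.relIndex Q = (Q ⊓ Subgroup.centralizer (R : Set G)).relIndex Q * m := by
      refine Nat.eq_of_mul_eq_mul_right (Nat.card_pos (α := S)) ?_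
      rw [← h2]; ring
    intro hd
    exact hS3 (h3 ▸ Dvd.dvd.mul_right hd m)
  have h1 : (Q ⊓ Subgroup.centralizer (R : Set G)).relIndex Q = 1 := by
    by_contra hne
    obtain ⟨q, hq, hd⟩ := Nat.exists_prime_and_dvd hne
    exact key q hq hd
  have h2 := Subgroup.relIndex_eq_one.1 h1
  refine h.not_cent ?_
  rw [Subgroup.le_centralizer_iff]
  exact h2.trans inf_le_right

/-- proper `G`-normal subgroups of `Q` are centralized by `U` -/
theorem centralizes (h : D1 k Q R) {Q₁ : Subgroup G} (hn : Q₁.Normal) (hle : Q₁ ≤ Q)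
    (hne : Q₁ ≠ Q) : twoGen (T k (⊤ : Subgroup G)) ≤ Subgroup.centralizer (Q₁ : Set G) := by
  refine h.U_le_of_R_le inferInstance ?_
  by_contra hc
  exact hne (h.eq_Q hn hle hc)

theorem coprime (h : D1 k Q R) : (Nat.card R).Coprime (Nat.card Q) :=
  coprime_two_odd h.hR h.oddQ

theorem solvableR (h : D1 k Q R) : Group.IsSolvable R := by
  have := h.hR.isNilpotent
  infer_instance

theorem le_normQ (h : D1 k Q R) (H : Subgroup G) : H ≤ Subgroup.normalizer (Q : Set G) := by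
  rw [Subgroup.normalizer_eq_top_iff.2 h.normalQ]; exact le_top

theorem conj_commutator {A B : Subgroup G} {g : G} (hA : g ∈ Subgroup.normalizer (A : Set G))
    (hB : g ∈ Subgroup.normalizer (B : Set G)) :
    g ∈ Subgroup.normalizer ((⁅A, B⁆ : Subgroup G) : Set G) := by
  have key : ∀ g, g ∈ Subgroup.normalizer (A : Set G) → g ∈ Subgroup.normalizer (B : Set G) →
      ∀ x ∈ ⁅A, B⁆, g * x * g⁻¹ ∈ ⁅A, B⁆ := by
    intro g hA hB x hx
    have h1 : (⁅A, B⁆ : Subgroup G) ≤ (⁅A, B⁆ : Subgroup G).comap (MulAut.conj g).toMonoidHom := by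
      rw [Subgroup.commutator_le]
      intro a ha b hb
      rw [Subgroup.mem_comap, map_commutatorElement]
      exact Subgroup.commutator_mem_commutator ((Subgroup.mem_normalizer_iff.1 hA a).1 ha)
        ((Subgroup.mem_normalizer_iff.1 hB b).1 hb)
    exact h1 hx
  rw [Subgroup.mem_normalizer_iff]
  intro x
  refine ⟨key g hA hB x, fun hx => ?_⟩
  have := key g⁻¹ (Subgroup.inv_mem _ hA) (Subgroup.inv_mem _ hB) _ hx
  have h3 : g⁻¹ * (g * x * g⁻¹) * g⁻¹⁻¹ = x := by group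
  rwa [h3] at this

theorem comm_QR_le (h : D1 k Q R) : ⁅Q, R⁆ ≤ Q :=
  Subgroup.le_normalizer_iff_commutator_le_left.1 (h.le_normQ R)

theorem comm_normal (h : D1 k Q R) : (⁅Q, R⁆ : Subgroup G).Normal := by
  refine Subgroup.normalizer_eq_top_iff.1 (eq_top_iff.2 ?_)
  rw [← h.NR_sup_Q]
  refine sup_le ?_ ?_
  · intro g hg
    exact conj_commutator (h.le_normQ ⊤ (Subgroup.mem_top g)) hg
  · exact Subgroup.normalizer_commutator_ge_left _ _

/-- `[Q, R] = Q` -/
theorem comm_eq (h : D1 k Q R) : ⁅Q, R⁆ = Q := by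
  refine h.eq_Q h.comm_normal h.comm_QR_le ?_
  intro hc
  have h1 := S0027.result R Q (h.le_normQ R) h.coprime (Or.inl h.solvableR)
  have h2 : ⁅⁅Q, R⁆, R⁆ = ⊥ := by
    rw [Subgroup.commutator_eq_bot_iff_le_centralizer, Subgroup.le_centralizer_iff]
    exact hc
  rw [h2] at h1
  have h3 : Q ≤ Subgroup.centralizer (R : Set G) :=
    Subgroup.commutator_eq_bot_iff_le_centralizer.1 h1.symm
  exact h.not_cent ((Subgroup.le_centralizer_iff).1 h3)

/-- `Z(Q)` as a subgroup of `G` -/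
abbrev ZQ (Q : Subgroup G) : Subgroup G := Q ⊓ Subgroup.centralizer (Q : Set G)

theorem normalZQ (h : D1 k Q R) : (ZQ Q).Normal := by
  have := h.normalQ
  infer_instance

/-- `C_Q(R) ≤ Z(Q)` -/
theorem CQR_le (h : D1 k Q R) : Q ⊓ Subgroup.centralizer (R : Set G) ≤ ZQ Q := by
  have hQn := h.normalQ
  refine le_inf inf_le_left ?_
  by_cases hab : Q ≤ Subgroup.centralizer (Q : Set G)
  · exact inf_le_left.trans hab
  -- `Q` is nonabelian
  obtain ⟨q, hq, hqQ⟩ := h.exists_prime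
  have := Fact.mk hq
  have hnil : Group.IsNilpotent Q := hqQ.isNilpotent
  have hD : (⁅Q, Q⁆ : Subgroup G).Normal := inferInstance
  have hDle : ⁅Q, Q⁆ ≤ Q := Subgroup.commutator_le_right Q Q
  have hDne : ⁅Q, Q⁆ ≠ Q := by
    intro he
    have hsol : Group.IsSolvable Q := inferInstance
    have h1 : commutator Q = ⊤ := by
      have : (commutator Q).map Q.subtype = (⊤ : Subgroup Q).map Q.subtype := by
        rw [Subgroup.map_subtype_commutator, he, ← MonoidHom.range_eq_map, Subgroup.range_subtype]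
      exact Subgroup.map_injective Q.subtype_injective this
    have : Nontrivial Q := (Subgroup.nontrivial_iff_ne_bot Q).2 h.QneBot
    exact (Group.IsSolvable.commutator_lt_top_of_nontrivial Q).ne h1
  have hU := h.centralizes hD hDle hDne
  -- fixed points of `R` on `Q/Q'` are trivial
  have h1 : Q ⊓ Subgroup.centralizer (R : Set G) ≤ ⁅Q, Q⁆ := by
    -- apply the abelian decomposition in `G/Q'`
    let f := QuotientGroup.mk' (⁅Q, Q⁆ : Subgroup G)
    have hfs : Function.Surjective f := QuotientGroup.mk'_surjective _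
    have : IsMulCommutative (Q.map f) := by
      refine ⟨⟨?_⟩⟩
      rintro ⟨_, a, ha, rfl⟩ ⟨_, b, hb, rfl⟩
      refine Subtype.ext ?_
      show f a * f b = f b * f a
      rw [← commutatorElement_eq_one_iff_mul_comm, ← map_commutatorElement]
      exact (QuotientGroup.eq_one_iff _).2 (Subgroup.commutator_mem_commutator ha hb)
    have h2 := S0055.result (R.map f) (Q.map f) (by
        have : (Q.map f).Normal := hQn.map f hfs
        rw [Subgroup.normalizer_eq_top_iff.2 inferInstance]; exact le_top)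
      (Nat.Coprime.of_dvd_left (Subgroup.card_map_dvd R f) <|
        Nat.Coprime.of_dvd_right (Subgroup.card_map_dvd Q f) h.coprime)
    have h3 : ⁅Q.map f, R.map f⁆ = Q.map f := by rw [← Subgroup.map_commutator, h.comm_eq]
    rw [h3] at h2
    intro x hx
    have h4 : f x ∈ Q.map f ⊓ Subgroup.centralizer (R.map f : Set (G ⧸ ⁅Q, Q⁆)) ⊓ Q.map f := by
      refine ⟨⟨⟨x, hx.1, rfl⟩, ?_⟩, ⟨x, hx.1, rfl⟩⟩
      rintro _ ⟨r, hr, rfl⟩
      rw [← map_mul, ← map_mul, hx.2 r hr]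
    rw [h2.1] at h4
    exact (QuotientGroup.eq_one_iff _).1 h4
  refine h1.trans ?_
  rw [Subgroup.le_centralizer_iff]
  exact h.QU.trans hU

/-- if `Q` is abelian then `C_Q(R) = 1` -/
theorem CQR_eq_bot (h : D1 k Q R) (hab : Q ≤ Subgroup.centralizer (Q : Set G)) :
    Q ⊓ Subgroup.centralizer (R : Set G) = ⊥ := by
  have : IsMulCommutative Q := ⟨⟨fun a b => Subtype.ext (hab b.2 a a.2)⟩⟩
  have h2 := S0055.result R Q (h.le_normQ R) h.coprime
  rw [h.comm_eq, inf_eq_left.2 inf_le_left] at h2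
  exact h2.1

/-- if `Q` is nonabelian then `C_Q(R) = Z(Q)`, centralized by `U` -/
theorem U_le_cent_ZQ (h : D1 k Q R) (hab : ¬ Q ≤ Subgroup.centralizer (Q : Set G)) :
    twoGen (T k (⊤ : Subgroup G)) ≤ Subgroup.centralizer (ZQ Q : Set G) := by
  refine h.centralizes h.normalZQ inf_le_left fun he => hab ?_
  rw [← inf_eq_left]
  exact he

theorem comm_QQ_le (h : D1 k Q R) : ⁅Q, Q⁆ ≤ ZQ Q := by
  have hQn := h.normalQ
  obtain ⟨q, hq, hqQ⟩ := h.exists_prime
  have := Fact.mk hq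
  have hnil : Group.IsNilpotent Q := hqQ.isNilpotent
  have hD : (⁅Q, Q⁆ : Subgroup G).Normal := inferInstance
  have hDle : ⁅Q, Q⁆ ≤ Q := Subgroup.commutator_le_right Q Q
  refine le_inf hDle ?_
  have hDne : ⁅Q, Q⁆ ≠ Q := by
    intro he
    have hsol : Group.IsSolvable Q := inferInstance
    have h1 : commutator Q = ⊤ := by
      have : (commutator Q).map Q.subtype = (⊤ : Subgroup Q).map Q.subtype := by
        rw [Subgroup.map_subtype_commutator, he, ← MonoidHom.range_eq_map, Subgroup.range_subtype]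
      exact Subgroup.map_injective Q.subtype_injective this
    have : Nontrivial Q := (Subgroup.nontrivial_iff_ne_bot Q).2 h.QneBot
    exact (Group.IsSolvable.commutator_lt_top_of_nontrivial Q).ne h1
  have hU := h.centralizes hD hDle hDne
  rw [Subgroup.le_centralizer_iff]
  exact h.QU.trans hU

/-- irreducibility: a `G`-normal subgroup between -/
theorem irr_Q (h : D1 k Q R) {Q₁ : Subgroup G} (hn : Q₁.Normal) (hle : Q₁ ≤ Q) :
    Q₁ = Q ∨ Q₁ ≤ ZQ Q := by
  by_cases he : Q₁ = Q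
  · exact Or.inl he
  · right
    refine le_inf hle ?_
    rw [Subgroup.le_centralizer_iff]
    exact h.QU.trans (h.centralizes hn hle he)

/-- every `2`-element centralizing `Q` is trivial -/
theorem propP (h : D1 k Q R) {x : G} (hx : IsTwo x) (hc : ∀ a ∈ Q, x * a = a * x) : x = 1 := by
  have hQn := h.normalQ
  set C := Subgroup.centralizer (Q : Set G) with hC
  have hxC : x ∈ C := fun a ha => (hc a ha).symm
  have hCn : C.Normal := inferInstance
  obtain ⟨S, hS1, hS2, hS3⟩ := exists_sylow_of 2 C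
  set X' := Subgroup.normalizer (S : Set G) with hX'
  have hF : X' ⊔ C = ⊤ := frattini hS1 hS2 hS3 hCn
  set H := Q ⊔ X' with hH
  -- the claim
  have hU : twoGen (T k (⊤ : Subgroup G)) ≤ twoGen (T k H) ⊔ C := by
    let f := QuotientGroup.mk' C
    have hfs : Function.Surjective f := QuotientGroup.mk'_surjective _
    have h1 : H.map f = ⊤ := by
      rw [eq_top_iff, ← Subgroup.map_top_of_surjective f hfs, ← hF, Subgroup.map_sup]
      have : C.map f = ⊥ := by
        rw [← le_bot_iff, Subgroup.map_le_iff_le_comap]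
        intro x hx
        exact (QuotientGroup.eq_one_iff x).2 hx
      rw [this, sup_bot_eq]
      exact Subgroup.map_mono le_sup_right
    have h2 : (twoGen (T k (⊤ : Subgroup G))).map f = (twoGen (T k H)).map f := by
      rw [twoGen_map, twoGen_map, T_map, T_map, h1, Subgroup.map_top_of_surjective f hfs]
    intro u hu
    have h3 : f u ∈ (twoGen (T k H)).map f := by rw [← h2]; exact ⟨u, hu, rfl⟩
    obtain ⟨v, hv, hvu⟩ := h3
    have h4 : v⁻¹ * u ∈ C := QuotientGroup.eq.1 hvu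
    have h5 : u = v * (v⁻¹ * u) := by group
    rw [h5]
    exact Subgroup.mul_mem_sup hv h4
  have hQT : Q ≤ T (k + 1) H := by
    rw [← h.comm_eq, Subgroup.commutator_le]
    intro a ha r hr
    have h1 := hU (h.hRU hr)
    rw [Subgroup.mem_sup_of_normal_right] at h1
    obtain ⟨v, hv, c, hc', rfl⟩ := h1
    have h2 : ⁅a, v * c⁆ = ⁅a, v⁆ := by
      have h3 : a * c = c * a := hc' a ha
      rw [commutatorElement_def, commutatorElement_def]
      calc a * (v * c) * a⁻¹ * (v * c)⁻¹ = a * v * (c * a⁻¹ * c⁻¹) * v⁻¹ := by group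
        _ = a * v * a⁻¹ * v⁻¹ := by
          have h4 : c * a⁻¹ * c⁻¹ = a⁻¹ := by
            rw [mul_inv_eq_iff_eq_mul, eq_comm, inv_mul_eq_iff_eq_mul, ← mul_assoc, h3, mul_assoc,
              mul_inv_cancel, mul_one]
          rw [h4]
    rw [h2]
    have h3 : ⁅a, v⁆ ∈ Q := by
      have : ⁅a, v⁆ = a * (v * a⁻¹ * v⁻¹) := by rw [commutatorElement_def]; group
      rw [this]
      exact Q.mul_mem ha (hQn.conj_mem _ (Q.inv_mem ha) v)
    have h4 : ⁅a, v⁆ ∈ twoGen (T k H) := by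
      have h5 : a * v * a⁻¹ ∈ twoGen (T k H) :=
        (Subgroup.mem_normalizer_iff.1
          (le_normalizer_twoGen_T k H (Subgroup.mem_sup_left ha)) v).1 hv
      exact Subgroup.mul_mem _ h5 (Subgroup.inv_mem _ hv)
    exact mem_oddGen h4 (odd_orderOf_of_mem h.oddQ h3)
  have hHtop : H = ⊤ := by
    by_contra hne
    have := h.crit.min H hne
    rw [this, le_bot_iff] at hQT
    exact h.QneBot hQT
  have hQX' : Q ≤ X' := by
    refine le_trans ?_ (Subgroup.centralizer_le_normalizer (S : Set G))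
    rw [Subgroup.le_centralizer_iff]
    exact hS1
  have hX'top : X' = ⊤ := by rw [← hHtop, hH, sup_eq_right.2 hQX']
  have hSn : S.Normal := Subgroup.normalizer_eq_top_iff.1 hX'top
  have hSbot : S = ⊥ := h.crit.core S hSn hS2
  obtain ⟨g, hg, hgx⟩ := exists_conj_mem hS1 hS2 hS3 hxC hx
  rw [hSbot, Subgroup.mem_bot] at hgx
  have : g * x = g := by
    have := mul_inv_eq_iff_eq_mul.1 hgx
    simpa using this
  simpa using this

end D1

end First

end Cfsg.Agent.H552
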