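import Mathlib
import Cfsg.Prelude.Def_Local
import Cfsg.Agent.H552.Series
set_option linter.all false

/-!
# Statements of the induction for S4259 (2-length and derived length) (helper552)

`ds S i` is the derived series of `S` inside the ambient group; `opProd ρ s d = (ρ (s (d-1)) - 1) * ... * (ρ (s 0) - 1)`;
`Nil ρ S d` : all these products with `s i ∈ ds S i` vanish (equivalently `[V, S, S', ..., S^(d-1)] = 0`).
-/

set_option autoImplicit false

universe u

namespace Cfsg.Agent.H552

/-- the derived series of the subgroup `S` inside `G` -/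
def ds {G : Type*} [Group G] (S : Subgroup G) : ℕ → Subgroup G
  | 0 => S
  | i + 1 => ⁅ds S i, ds S i⁆

/-- `(ρ (s (d-1)) - 1) * ... * (ρ (s 0) - 1)` -/
def opProd {G A : Type*} [Group G] [Ring A] (ρ : G →* A) (s : ℕ → G) : ℕ → A
  | 0 => 1
  | i + 1 => (ρ (s i) - 1) * opProd ρ s i

/-- `[V, S, S', ..., S^(d-1)] = 0` -/
def Nil {G A : Type*} [Group G] [Ring A] (ρ : G →* A) (S : Subgroup G) (d : ℕ) : Prop :=
  ∀ s : ℕ → G, (∀ i, s i ∈ ds S i) → opProd ρ s d = 0

/-- Theorem D with parameter `d` for the group `X` -/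
def DAt (d : ℕ) (X : Type u) [Group X] : Prop :=
  ∀ (M : Type u) [AddCommGroup M] [Module (ZMod 2) M] [Finite M] (ρ : X →* Module.End (ZMod 2) M),
    (∀ S : Subgroup X, IsPGroup 2 S → Nil ρ S d) → ∀ g ∈ T d (⊤ : Subgroup X), ρ g = 1

@[simp] theorem ds_zero {G : Type*} [Group G] (S : Subgroup G) : ds S 0 = S := rfl

theorem ds_succ {G : Type*} [Group G] (S : Subgroup G) (i : ℕ) : ds S (i + 1) = ⁅ds S i, ds S i⁆ := rfl

theorem ds_mono {G : Type*} [Group G] {S S' : Subgroup G} (h : S ≤ S') (i : ℕ) : ds S i ≤ ds S' i := by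
  induction i with
  | zero => exact h
  | succ i ih => exact Subgroup.commutator_mono ih ih

theorem ds_succ_le {G : Type*} [Group G] (S : Subgroup G) (i : ℕ) : ds S (i + 1) ≤ ds S i :=
  Subgroup.commutator_le_self _

theorem ds_antitone {G : Type*} [Group G] (S : Subgroup G) : Antitone (ds S) :=
  antitone_nat_of_succ_le fun i => ds_succ_le S i

theorem ds_le {G : Type*} [Group G] (S : Subgroup G) (i : ℕ) : ds S i ≤ S :=
  ds_antitone S (Nat.zero_le i)

theorem ds_map {G G' : Type*} [Group G] [Group G'] (f : G →* G') (S : Subgroup G) (i : ℕ) :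
    (ds S i).map f = ds (S.map f) i := by
  induction i with
  | zero => rfl
  | succ i ih => rw [ds_succ, Subgroup.map_commutator, ih, ds_succ]

theorem opProd_succ {G A : Type*} [Group G] [Ring A] (ρ : G →* A) (s : ℕ → G) (i : ℕ) :
    opProd ρ s (i + 1) = (ρ (s i) - 1) * opProd ρ s i := rfl

theorem opProd_congr {G A : Type*} [Group G] [Ring A] (ρ : G →* A) {s s' : ℕ → G} {d : ℕ}
    (h : ∀ i < d, s i = s' i) : opProd ρ s d = opProd ρ s' d := by
  induction d with
  | zero => rfl
  | succ d ih => rw [opProd_succ, opProd_succ, h d (Nat.lt_succ_self d), ih fun i hi => h i (Nat.lt_succ_of_lt hi)]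

end Cfsg.Agent.H552
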