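import Mathlib
import Cfsg.Agent.H552.DL2
import Cfsg.Agent.H552.Bilin
import Cfsg.Agent.H557.E1
set_option linter.all false

/-!
# The final contradiction for S4259 (helper552)
-/

set_option autoImplicit false
set_option linter.unusedSectionVars false
set_option linter.unusedVariables false
set_option linter.style.haveILetI false

universe u

namespace Cfsg.Agent.H552

open scoped commutatorElement

/-- `[R, S₁, S₁', ...]` inside `R` -/
def Mi {G : Type*} [Group G] (R S₁ : Subgroup G) : ℕ → Subgroup G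
  | 0 => R
  | i + 1 => ⁅Mi R S₁ i, ds S₁ i⁆

section

variable {G : Type u} [Group G] [Finite G]

theorem ds_norm (S : Subgroup G) (i : ℕ) : S ≤ Subgroup.normalizer (ds S i : Set G) := by
  induction i with
  | zero => exact Subgroup.le_normalizer
  | succ i ih => exact fun g hg => D1.conj_commutator (ih hg) (ih hg)

theorem Mi_le_ds {R S₁ S : Subgroup G} (hR : R ≤ S) (hS : S₁ ≤ S) (i : ℕ) : Mi R S₁ i ≤ ds S i := by
  induction i with
  | zero => exact hR
  | succ i ih => exact Subgroup.commutator_mono ih (ds_mono hS i)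

theorem Mi_norm {R S₁ : Subgroup G} (hn : S₁ ≤ Subgroup.normalizer (R : Set G)) (i : ℕ) :
    S₁ ≤ Subgroup.normalizer (Mi R S₁ i : Set G) := by
  induction i with
  | zero => exact hn
  | succ i ih => exact fun g hg => D1.conj_commutator (ih hg) (ds_norm S₁ i hg)

theorem Mi_succ_le {R S₁ : Subgroup G} (hn : S₁ ≤ Subgroup.normalizer (R : Set G)) (i : ℕ) :
    Mi R S₁ (i + 1) ≤ Mi R S₁ i :=
  Subgroup.le_normalizer_iff_commutator_le_left.1 ((ds_le S₁ i).trans (Mi_norm hn i))

theorem Mi_antitone {R S₁ : Subgroup G} (hn : S₁ ≤ Subgroup.normalizer (R : Set G)) :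
    Antitone (Mi R S₁) :=
  antitone_nat_of_succ_le fun i => Mi_succ_le hn i

theorem Mi_le {R S₁ : Subgroup G} (hn : S₁ ≤ Subgroup.normalizer (R : Set G)) (i : ℕ) : Mi R S₁ i ≤ R :=
  Mi_antitone hn (Nat.zero_le i)

variable {k : ℕ} {Q R L N₁ : Subgroup G}

/-- by Theorem D for `N₁` -/
theorem D2.exists_t (h : D2 k Q R L N₁) (hD : DAt.{u} k ↥N₁) :
    ∃ S₁ ≤ N₁, IsPGroup 2 S₁ ∧ ∃ t ∈ Mi R S₁ k, t ∉ Z0 R L := by
  obtain ⟨M, i1, i2, i3, π, ρ, d⟩ := h.exists_MD
  by_contra hcon
  push Not at hcon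
  have h1 : ∀ g ∈ T k (⊤ : Subgroup ↥N₁), ρ g = 1 := by
    refine hD M ρ fun S hS s hs => ?_
    ext v
    obtain ⟨a, rfl⟩ := d.surj v
    rw [LinearMap.zero_apply]
    have key : ∀ i : ℕ, ∃ t : ↥R, (t : G) ∈ Mi R (S.map N₁.subtype) i ∧ π t = opProd ρ s i (π a) := by
      intro i
      induction i with
      | zero => exact ⟨a, a.2, rfl⟩
      | succ i ih =>
        obtain ⟨t, ht, hπ⟩ := ih
        have h2 : (s i : G) * t * (s i : G)⁻¹ ∈ R := d.norm (s i) (s i).2 t t.2
        refine ⟨⟨(s i : G) * t * (s i : G)⁻¹, h2⟩ * t⁻¹, ?_, ?_⟩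
        · show (s i : G) * t * (s i : G)⁻¹ * (t : G)⁻¹ ∈ ⁅Mi R (S.map N₁.subtype) i, ds (S.map N₁.subtype) i⁆
          have h3 : (s i : G) ∈ ds (S.map N₁.subtype) i := by
            rw [← ds_map]; exact ⟨s i, hs i, rfl⟩
          have h4 := Subgroup.inv_mem _ (Subgroup.commutator_mem_commutator ht h3)
          rw [commutatorElement_inv] at h4
          exact h4
        · rw [d.add, d.inv, ← d.act, hπ, opProd_succ, Module.End.mul_apply, LinearMap.sub_apply,
            Module.End.one_apply, sub_eq_add_neg]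
    obtain ⟨t, ht, hπ⟩ := key k
    rw [← hπ, d.ker]
    exact hcon (S.map N₁.subtype) (Subgroup.map_subtype_le _) (hS.map _) t ht
  have h2 : ⁅R, L⁆ ≤ Z0 R L := by
    rw [Subgroup.commutator_le]
    intro r hr l hl
    obtain ⟨l₀, hl₀, c, hc, rfl⟩ := h.L_eq hl
    rw [← T_subtype] at hl₀
    obtain ⟨g, hg, rfl⟩ := hl₀
    have h3 := (d.act_eq_one_iff g).1 (h1 g hg) r hr
    have h4 := Subgroup.inv_mem _ h3
    have h5 : ⁅r, N₁.subtype g * c⁆ = ((g : G) * r * (g : G)⁻¹ * r⁻¹)⁻¹ := by
      have h6 : r * c = c * r := hc.2 r hr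
      have h7 : c * r⁻¹ * c⁻¹ = r⁻¹ := by
        rw [mul_inv_eq_iff_eq_mul, eq_comm, inv_mul_eq_iff_eq_mul, ← mul_assoc, h6, mul_assoc,
          mul_inv_cancel, mul_one]
      have h8 : ⁅r, N₁.subtype g * c⁆ = r * (g : G) * (c * r⁻¹ * c⁻¹) * (g : G)⁻¹ := by
        rw [commutatorElement_def]
        show r * ((g : G) * c) * r⁻¹ * ((g : G) * c)⁻¹ = _
        group
      rw [h8, h7]; group
    rw [h5]
    exact h4
  rw [h.comm_RL] at h2
  exact h.Z0_ne (le_antisymm inf_le_left h2)

end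

section sums

variable {G A : Type*} [Group G] [Finite G] [Ring A]

open Classical in
/-- the sum over the elements of a subgroup -/
noncomputable def sumS (ρ : G →* A) (B : Subgroup G) : A := ∑ b ∈ (Set.toFinite (B : Set G)).toFinset, ρ b

theorem sumS_eq (ρ : G →* A) (B : Subgroup G) [Fintype B] : sumS ρ B = ∑ b : B, ρ b := by
  classical
  rw [sumS]
  refine Finset.sum_subtype (p := fun x => x ∈ B) _ (fun x => ?_) _
  rw [Set.Finite.mem_toFinset]
  rfl

/-- products of `ρ s - 1` over independent involutions are sums over a subgroup -/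
theorem exists_B (hA : ∀ a : A, a + a = 0) (ρ : G →* A) {R K : Subgroup G}
    (hab : ∀ r ∈ R, ∀ s ∈ R, r * s = s * r) (h2 : ∀ r ∈ R, r ^ 2 = 1) (ℓ : ℕ) :
    ∀ (M : ℕ → Subgroup G) (s : ℕ → G), (∀ i ≤ ℓ, s i ∈ M i) → (∀ i ≤ ℓ, M i ≤ R) →
      (∀ i < ℓ, M (i + 1) ≤ M i) → (∀ i < ℓ, s i ∉ M (i + 1) ⊔ K) → s ℓ ∉ K →
      ∃ B ≤ M 0, B ⊓ K = ⊥ ∧ sumS ρ B = opProd ρ s (ℓ + 1) := by
  classical
  have hsub : ∀ a c : A, a - c = a + c := fun a c => by
    rw [sub_eq_iff_eq_add, add_assoc, hA, add_zero]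
  induction ℓ with
  | zero =>
    intro M s hs hM _ _ hK
    set t := s 0 with ht
    have htM : t ∈ M 0 := hs 0 le_rfl
    have ht2 : t ^ 2 = 1 := h2 t (hM 0 le_rfl htM)
    have ht1 : t ≠ 1 := fun h => hK (h ▸ K.one_mem)
    let B : Subgroup G :=
      { carrier := {x | x = 1 ∨ x = t}
        one_mem' := Or.inl rfl
        mul_mem' := by
          rintro a c (rfl | rfl) (rfl | rfl)
          · left; simp
          · right; simp
          · right; simp
          · left; rw [← pow_two]; exact ht2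
        inv_mem' := by
          rintro a (rfl | rfl)
          · left; simp
          · right; rw [inv_eq_iff_mul_eq_one, ← pow_two]; exact ht2 }
    have hB : ∀ x, x ∈ B ↔ x = 1 ∨ x = t := fun x => Iff.rfl
    refine ⟨B, ?_, ?_, ?_⟩
    · rintro x (rfl | rfl)
      · exact Subgroup.one_mem _
      · exact htM
    · rw [eq_bot_iff]
      rintro x ⟨hx | hx, hxK⟩
      · rw [hx]; exact Subgroup.one_mem _
      · rw [hx] at hxK; exact absurd hxK hK
    · have h3 : (Set.toFinite (B : Set G)).toFinset = {1, t} := by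
        ext x
        rw [Set.Finite.mem_toFinset, Finset.mem_insert, Finset.mem_singleton]
        exact hB x
      rw [sumS, h3, Finset.sum_pair ht1.symm, map_one, opProd_succ, hsub]
      show 1 + ρ t = (ρ t + 1) * 1
      rw [mul_one, add_comm]
  | succ ℓ ih =>
    intro M s hs hM hMM hK hKℓ
    obtain ⟨B', hB'M, hB'K, hB's⟩ := ih (fun i => M (i + 1)) (fun i => s (i + 1))
      (fun i hi => hs (i + 1) (by omega)) (fun i hi => hM (i + 1) (by omega))
      (fun i hi => hMM (i + 1) (by omega)) (fun i hi => hK (i + 1) (by omega)) hKℓ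
    set t := s 0 with ht
    have htM : t ∈ M 0 := hs 0 (Nat.zero_le _)
    have htR : t ∈ R := hM 0 (Nat.zero_le _) htM
    have ht2 : t ^ 2 = 1 := h2 t htR
    have hB'M0 : B' ≤ M 0 := le_trans hB'M (hMM 0 (Nat.succ_pos ℓ))
    have hB'R : B' ≤ R := hB'M0.trans (hM 0 (Nat.zero_le _))
    have htB' : ∀ b ∈ B', ∀ c ∈ K, t ≠ b * c := by
      intro b hb c hc he
      apply hK 0 (Nat.succ_pos ℓ)
      show t ∈ _
      rw [he]
      exact Subgroup.mul_mem_sup (hB'M hb) hc
    let B : Subgroup G :=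
      { carrier := {x | x ∈ B' ∨ ∃ b ∈ B', x = b * t}
        one_mem' := Or.inl B'.one_mem
        mul_mem' := by
          rintro a c (ha | ⟨a', ha, rfl⟩) (hc | ⟨c', hc, rfl⟩)
          · left; exact B'.mul_mem ha hc
          · right; exact ⟨a * c', B'.mul_mem ha hc, by rw [mul_assoc]⟩
          · right
            refine ⟨a' * c, B'.mul_mem ha hc, ?_⟩
            rw [mul_assoc, hab t htR c (hB'R hc), mul_assoc]
          · left
            have h3 : a' * t * (c' * t) = a' * c' := by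
              rw [mul_assoc, ← mul_assoc t, hab t htR c' (hB'R hc), mul_assoc, ← pow_two, ht2, mul_one]
            rw [h3]
            exact B'.mul_mem ha hc
        inv_mem' := by
          rintro a (ha | ⟨a', ha, rfl⟩)
          · left; exact B'.inv_mem ha
          · right
            refine ⟨a'⁻¹, B'.inv_mem ha, ?_⟩
            have h3 : t⁻¹ = t := by rw [inv_eq_iff_mul_eq_one, ← pow_two]; exact ht2
            rw [mul_inv_rev, h3, hab t htR _ (hB'R (B'.inv_mem ha))] }
    have hB : ∀ x, x ∈ B ↔ x ∈ B' ∨ ∃ b ∈ B', x = b * t := fun x => Iff.rfl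
    refine ⟨B, ?_, ?_, ?_⟩
    · rintro x (hx | ⟨b, hb, rfl⟩)
      · exact hB'M0 hx
      · exact Subgroup.mul_mem _ (hB'M0 hb) htM
    · rw [eq_bot_iff]
      rintro x ⟨hx | ⟨b, hb, hx⟩, hxK⟩
      · rw [← hB'K]; exact ⟨hx, hxK⟩
      · exfalso
        refine htB' b⁻¹ (B'.inv_mem hb) x hxK ?_
        rw [hx]; group
    · have h3 : (Set.toFinite (B : Set G)).toFinset =
          (Set.toFinite (B' : Set G)).toFinset ∪ ((Set.toFinite (B' : Set G)).toFinset.image (· * t)) := by
        ext x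
        rw [Set.Finite.mem_toFinset, Finset.mem_union, Finset.mem_image, Set.Finite.mem_toFinset]
        constructor
        · rintro (hx | ⟨b, hb, hx⟩)
          · exact Or.inl hx
          · exact Or.inr ⟨b, (Set.Finite.mem_toFinset _).2 hb, hx.symm⟩
        · rintro (hx | ⟨b, hb, hx⟩)
          · exact Or.inl hx
          · exact Or.inr ⟨b, (Set.Finite.mem_toFinset _).1 hb, hx.symm⟩
      have hdisj : Disjoint (Set.toFinite (B' : Set G)).toFinset
          ((Set.toFinite (B' : Set G)).toFinset.image (· * t)) := by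
        rw [Finset.disjoint_left]
        intro x hx hx'
        rw [Set.Finite.mem_toFinset] at hx
        obtain ⟨b, hb, hbx⟩ := Finset.mem_image.1 hx'
        rw [Set.Finite.mem_toFinset] at hb
        refine htB' (b⁻¹ * x) (B'.mul_mem (B'.inv_mem hb) hx) 1 K.one_mem ?_
        rw [mul_one, ← hbx]; group
      have hinj : Set.InjOn (· * t) ((Set.toFinite (B' : Set G)).toFinset : Set G) :=
        fun a _ c _ hac => mul_right_cancel hac
      rw [sumS, h3, Finset.sum_union hdisj, Finset.sum_image hinj]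
      have h4 : ∑ x ∈ (Set.toFinite (B' : Set G)).toFinset, ρ (x * t) = sumS ρ B' * ρ t := by
        rw [sumS, Finset.sum_mul]
        exact Finset.sum_congr rfl fun x _ => map_mul ρ x t
      have h5 : ∑ x ∈ (Set.toFinite (B' : Set G)).toFinset, ρ x = sumS ρ B' := rfl
      rw [h4, h5, hB's]
      have h6 : ℓ + 1 + 1 = 1 + (ℓ + 1) := by omega
      have h7 : (fun i => s (1 + i)) = fun i => s (i + 1) := by funext i; rw [add_comm]
      have h8 : opProd ρ s 1 = 1 + ρ t := by
        rw [opProd_succ, hsub, add_comm]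
        show (1 + ρ t) * 1 = _
        rw [mul_one]
      have h9 : opProd ρ s (ℓ + 1 + 1) = opProd ρ (fun i => s (i + 1)) (ℓ + 1) * (1 + ρ t) := by
        rw [h6, opProd_add, h7, h8]
      rw [h9, mul_add, mul_one]

end sums

end Cfsg.Agent.H552
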