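import Mathlib
import Cfsg.Agent.H552.DL3
import Cfsg.Agent.H557.Free
import Cfsg.Agent.H557.E1
set_option linter.all false

/-!
# The final contradiction for S4259 (helper552)
-/

set_option autoImplicit false
set_option linter.unusedSectionVars false
set_option linter.unusedVariables false
set_option linter.style.haveILetI false

universe u

namespace Cfsg.Agent.H552

open scoped commutatorElement
open D1 (ZQ)

section Mu

variable {K : Type*} [Field K] {G : Type u} [Group G] [Finite G]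

open Classical in
/-- a homomorphism as a function -/
noncomputable def fn {Z : Subgroup G} (μ : Z →* Kˣ) : G → K := fun g => if h : g ∈ Z then (μ ⟨g, h⟩ : K) else 0

theorem fn_mem {Z : Subgroup G} (μ : Z →* Kˣ) {g : G} (h : g ∈ Z) : fn μ g = (μ ⟨g, h⟩ : K) := by
  rw [fn, dif_pos h]

theorem fn_mul {Z : Subgroup G} (μ : Z →* Kˣ) {g g' : G} (h : g ∈ Z) (h' : g' ∈ Z) :
    fn μ (g * g') = fn μ g * fn μ g' := by
  rw [fn_mem μ h, fn_mem μ h', fn_mem μ (Z.mul_mem h h')]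
  have : (⟨g * g', Z.mul_mem h h'⟩ : Z) = ⟨g, h⟩ * ⟨g', h'⟩ := rfl
  rw [this, map_mul, Units.val_mul]

theorem fn_one {Z : Subgroup G} (μ : Z →* Kˣ) : fn μ (1 : G) = 1 := by
  rw [fn_mem μ Z.one_mem]
  have : (⟨1, Z.one_mem⟩ : Z) = 1 := rfl
  rw [this, map_one, Units.val_one]

theorem fn_inv {Z : Subgroup G} (μ : Z →* Kˣ) {g : G} (h : g ∈ Z) (h1 : fn μ g = 1) : fn μ g⁻¹ = 1 := by
  have h2 := fn_mul μ h (Z.inv_mem h)
  rw [mul_inv_cancel, fn_one, h1, one_mul] at h2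
  exact h2.symm

variable {k : ℕ} {Q R : Subgroup G}

/-- commutators with values in the center -/
theorem cm_mul (h : D1 k Q R) {a b c : G} (ha : a ∈ Q) (hb : b ∈ Q) (hc : c ∈ Q) :
    ⁅a * b, c⁆ = ⁅a, c⁆ * ⁅b, c⁆ := by
  have h1 : ⁅b, c⁆ ∈ ZQ Q := h.comm_QQ_le (Subgroup.commutator_mem_commutator hb hc)
  have h0 : ⁅a, c⁆ ∈ ZQ Q := h.comm_QQ_le (Subgroup.commutator_mem_commutator ha hc)
  have h2 : a * ⁅b, c⁆ = ⁅b, c⁆ * a := h1.2 a ha
  have h3 : ⁅a * b, c⁆ = a * ⁅b, c⁆ * a⁻¹ * ⁅a, c⁆ := by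
    simp only [commutatorElement_def]; group
  rw [h3, h2, mul_inv_cancel_right]
  exact (h1.2 _ h0.1).symm

/-- the radical of the commutator form of `μ` -/
def Smu (h : D1 k Q R) (μ : ↥(ZQ Q) →* Kˣ) : Subgroup G where
  carrier := {a | a ∈ Q ∧ ∀ a' ∈ Q, fn μ ⁅a, a'⁆ = 1}
  one_mem' := ⟨Q.one_mem, fun a' _ => by rw [commutatorElement_one_left, fn_one]⟩
  mul_mem' := by
    rintro a b ⟨ha, ha'⟩ ⟨hb, hb'⟩
    refine ⟨Q.mul_mem ha hb, fun a' h' => ?_⟩
    rw [cm_mul h ha hb h', fn_mul μ (h.comm_QQ_le (Subgroup.commutator_mem_commutator ha h'))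
      (h.comm_QQ_le (Subgroup.commutator_mem_commutator hb h')), ha' a' h', hb' a' h', one_mul]
  inv_mem' := by
    rintro a ⟨ha, ha'⟩
    refine ⟨Q.inv_mem ha, fun a' h' => ?_⟩
    have h1 := cm_mul h ha (Q.inv_mem ha) h'
    rw [mul_inv_cancel, commutatorElement_one_left] at h1
    have h2 : ⁅a⁻¹, a'⁆ = (⁅a, a'⁆)⁻¹ := (inv_eq_of_mul_eq_one_right h1.symm).symm
    rw [h2]
    exact fn_inv μ (h.comm_QQ_le (Subgroup.commutator_mem_commutator ha h')) (ha' a' h')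

theorem mem_Smu {h : D1 k Q R} {μ : ↥(ZQ Q) →* Kˣ} {a : G} :
    a ∈ Smu h μ ↔ a ∈ Q ∧ ∀ a' ∈ Q, fn μ ⁅a, a'⁆ = 1 := Iff.rfl

theorem Smu_conj (h : D1 k Q R) (μ : ↥(ZQ Q) →* Kˣ) {g : G} (hg : ∀ x ∈ ZQ Q, fn μ (g * x * g⁻¹) = fn μ x)
    {s : G} (hs : s ∈ Smu h μ) : g * s * g⁻¹ ∈ Smu h μ := by
  have hQn := h.normalQ
  refine ⟨hQn.conj_mem s hs.1 g, fun a' h' => ?_⟩
  have h1 : g⁻¹ * a' * g ∈ Q := by
    have := hQn.conj_mem a' h' g⁻¹
    simpa using this
  have h2 : ⁅g * s * g⁻¹, a'⁆ = g * ⁅s, g⁻¹ * a' * g⁆ * g⁻¹ := by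
    simp only [commutatorElement_def]; group
  rw [h2, hg _ (h.comm_QQ_le (Subgroup.commutator_mem_commutator hs.1 h1))]
  exact hs.2 _ h1

theorem R_fix (h : D1 k Q R) (hab : ¬ Q ≤ Subgroup.centralizer (Q : Set G)) (μ : ↥(ZQ Q) →* Kˣ) {r : G}
    (hr : r ∈ R) : ∀ x ∈ ZQ Q, fn μ (r * x * r⁻¹) = fn μ x := by
  intro x hx
  have h1 := h.U_le_cent_ZQ hab (h.hRU hr) x hx
  have h2 : r * x * r⁻¹ = x := by rw [← h1]; group
  rw [h2]

/-- the elements of `R` acting trivially on `Q / S_μ` -/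
def Kmu (h : D1 k Q R) (hab : ¬ Q ≤ Subgroup.centralizer (Q : Set G)) (μ : ↥(ZQ Q) →* Kˣ) : Subgroup G where
  carrier := {r | r ∈ R ∧ ∀ a ∈ Q, ⁅r, a⁆ ∈ Smu h μ}
  one_mem' := ⟨R.one_mem, fun a _ => by rw [commutatorElement_one_left]; exact Subgroup.one_mem _⟩
  mul_mem' := by
    rintro r s ⟨hr, hr'⟩ ⟨hs, hs'⟩
    refine ⟨R.mul_mem hr hs, fun a ha => ?_⟩
    have h1 : ⁅r * s, a⁆ = r * ⁅s, a⁆ * r⁻¹ * ⁅r, a⁆ := by
      simp only [commutatorElement_def]; group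
    rw [h1]
    exact Subgroup.mul_mem _ (Smu_conj h μ (R_fix h hab μ hr) (hs' a ha)) (hr' a ha)
  inv_mem' := by
    rintro r ⟨hr, hr'⟩
    refine ⟨R.inv_mem hr, fun a ha => ?_⟩
    have h1 : ⁅r⁻¹, a⁆ = r⁻¹ * (⁅r, a⁆)⁻¹ * r⁻¹⁻¹ := by
      simp only [commutatorElement_def]; group
    rw [h1]
    exact Smu_conj h μ (R_fix h hab μ (R.inv_mem hr)) (Subgroup.inv_mem _ (hr' a ha))

theorem mem_Kmu {h : D1 k Q R} {hab : ¬ Q ≤ Subgroup.centralizer (Q : Set G)} {μ : ↥(ZQ Q) →* Kˣ} {r : G} :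
    r ∈ Kmu h hab μ ↔ r ∈ R ∧ ∀ a ∈ Q, ⁅r, a⁆ ∈ Smu h μ := Iff.rfl

theorem Kmu_conj (h : D1 k Q R) (hab : ¬ Q ≤ Subgroup.centralizer (Q : Set G)) (μ : ↥(ZQ Q) →* Kˣ) {g : G}
    (hgR : g ∈ Subgroup.normalizer (R : Set G)) (hg : ∀ x ∈ ZQ Q, fn μ (g * x * g⁻¹) = fn μ x)
    {r : G} (hr : r ∈ Kmu h hab μ) : g * r * g⁻¹ ∈ Kmu h hab μ := by
  have hQn := h.normalQ
  refine ⟨(Subgroup.mem_normalizer_iff.1 hgR r).1 hr.1, fun a ha => ?_⟩
  have h1 : g⁻¹ * a * g ∈ Q := by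
    have := hQn.conj_mem a ha g⁻¹
    simpa using this
  have h2 : ⁅g * r * g⁻¹, a⁆ = g * ⁅r, g⁻¹ * a * g⁆ * g⁻¹ := by
    simp only [commutatorElement_def]; group
  rw [h2]
  exact Smu_conj h μ hg (hr.2 _ h1)

end Mu

section Contra

variable {K : Type*} [Field K] [IsAlgClosed K] [CharP K 2] {V : Type*} [AddCommGroup V] [Module K V]
  [FiniteDimensional K V] {G : Type u} [Group G] [Finite G] {k : ℕ} {Q R L N₁ : Subgroup G}
  {ρ : G →* Module.End K V}

/-- a weight detecting the involution `r` of `R` -/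
theorem exists_mu (h : D1 k Q R) (hab : ¬ Q ≤ Subgroup.centralizer (Q : Set G)) (hρ : ∀ g, ρ g = 1 → g = 1)
    {r : G} (hr : r ∈ R) (hr1 : r ≠ 1) (hr2 : r ^ 2 = 1) :
    ∃ μ : ↥(ZQ Q) →* Kˣ, (∃ v : V, v ≠ 0 ∧ ∀ c : ↥(ZQ Q), ρ c v = (μ c : K) • v) ∧ r ∉ Kmu h hab μ := by
  have hQn := h.normalQ
  obtain ⟨q, hq, hqQ⟩ := h.exists_prime
  have hqf : Fact q.Prime := ⟨hq⟩
  have hq2 : q ≠ 2 := by
    intro he
    obtain ⟨n, hn⟩ := hqQ.exists_card_eq
    have h1 := h.oddQ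
    rw [hn, he] at h1
    have h2 : n = 0 := by
      by_contra hn0
      exact (Nat.not_even_iff_odd.2 h1) (Nat.even_pow.2 ⟨even_two, hn0⟩)
    rw [h2, pow_zero] at hn
    exact h.QneBot (Subgroup.eq_bot_of_card_eq _ hn)
  have hrQ : ∀ a ∈ Q, ⁅r, a⁆ ∈ Q := fun a ha => Q.mul_mem (hQn.conj_mem a ha r) (Q.inv_mem ha)
  -- some `⁅r, a⁆` is not central
  obtain ⟨a, ha, haZ⟩ : ∃ a ∈ Q, ⁅r, a⁆ ∉ ZQ Q := by
    by_contra hcon
    push Not at hcon
    apply hr1
    refine h.propP (isTwo_of_isPGroup h.hR hr) fun a ha => ?_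
    have h1 := hcon a ha
    set z := ⁅r, a⁆ with hz
    have h2 : z * r = r * z := h.U_le_cent_ZQ hab (h.hRU hr) z h1
    have h3 : r * a * r⁻¹ = z * a := by rw [hz, commutatorElement_def]; group
    have h4 : r * (r * a * r⁻¹) * r⁻¹ = z * (z * a) := by
      rw [h3]
      calc r * (z * a) * r⁻¹ = (r * z) * a * r⁻¹ := by group
        _ = z * (r * a * r⁻¹) := by rw [← h2]; group
        _ = z * (z * a) := by rw [h3]
    have h5 : r * (r * a * r⁻¹) * r⁻¹ = a := by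
      have h6 : r * r = 1 := by rw [← pow_two]; exact hr2
      have h7 : r * (r * a * r⁻¹) * r⁻¹ = (r * r) * a * (r * r)⁻¹ := by group
      rw [h7, h6]; group
    rw [h5] at h4
    have h6 : z * z = 1 := by
      have : (z * z) * a = 1 * a := by rw [mul_assoc, ← h4, one_mul]
      exact mul_right_cancel this
    have h7 : z = 1 := by
      refine eq_one_of_isTwo_of_odd ⟨1, ?_⟩ (odd_orderOf_of_mem h.oddQ h1.1)
      rw [pow_one, pow_two]; exact h6
    rw [h7, one_mul] at h3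
    rwa [mul_inv_eq_iff_eq_mul] at h3
  obtain ⟨a', ha', hne⟩ : ∃ a' ∈ Q, ⁅⁅r, a⁆, a'⁆ ≠ 1 := by
    by_contra hcon
    push Not at hcon
    apply haZ
    refine ⟨hrQ a ha, fun a' ha' => ?_⟩
    have := hcon a' ha'
    rw [commutatorElement_eq_one_iff_mul_comm] at this
    exact this.symm
  have hcZ : ⁅⁅r, a⁆, a'⁆ ∈ ZQ Q := h.comm_QQ_le (Subgroup.commutator_mem_commutator (hrQ a ha) ha')
  obtain ⟨μ, hμ, hμc⟩ := H557.PartC.W ρ hq2 (hqQ.to_le (inf_le_left : ZQ Q ≤ Q))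
    (fun a ha b hb => (ha.2 b hb.1).symm) (fun a _ h' => hρ a h') ⟨_, hcZ⟩
    (fun h' => hne (congrArg Subtype.val h'))
  refine ⟨μ, hμ, fun hr' => hμc ?_⟩
  have h1 := (hr'.2 a ha).2 a' ha'
  rw [fn_mem μ hcZ] at h1
  exact Units.ext h1

/-- the regular module lemma in the critical situation -/
theorem exists_sum_ne (h : D1 k Q R) (hab : ¬ Q ≤ Subgroup.centralizer (Q : Set G)) (μ : ↥(ZQ Q) →* Kˣ)
    (hμ : ∃ v : V, v ≠ 0 ∧ ∀ c : ↥(ZQ Q), ρ c v = (μ c : K) • v) {B : Subgroup G} (hBR : B ≤ R)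
    (hBab : ∀ a ∈ B, ∀ b ∈ B, a * b = b * a) (hB2 : ∀ b ∈ B, b ^ 2 = 1) (hBK : B ⊓ Kmu h hab μ = ⊥) :
    ∃ v ∈ wK ρ (ZQ Q) (fn μ), sumS ρ B v ≠ 0 := by
  classical
  have hQn := h.normalQ
  obtain ⟨q, hq, hqQ⟩ := h.exists_prime
  have hqf : Fact q.Prime := ⟨hq⟩
  have hq2 : q ≠ 2 := by
    intro he
    obtain ⟨n, hn⟩ := hqQ.exists_card_eq
    have h1 := h.oddQ
    rw [hn, he] at h1
    have h2 : n = 0 := by
      by_contra hn0
      exact (Nat.not_even_iff_odd.2 h1) (Nat.even_pow.2 ⟨even_two, hn0⟩)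
    rw [h2, pow_zero] at hn
    exact h.QneBot (Subgroup.eq_bot_of_card_eq _ hn)
  have := Fintype.ofFinite B
  obtain ⟨v, hv, hv'⟩ := H557.Free.free_lemma ρ hq2 hqQ (inf_le_left : ZQ Q ≤ Q) (fun c hc a ha => (hc.2 a ha).symm)
    (fun a ha b hb => h.comm_QQ_le (Subgroup.commutator_mem_commutator ha hb)) (h.le_normQ B)
    (fun b hb c hc => (h.U_le_cent_ZQ hab (h.hRU (hBR hb)) c hc).symm) hBab hB2 μ hμ
    (fun b hb hb' => by
      have h1 : b ∈ B ⊓ Kmu h hab μ := by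
        refine ⟨hb, hBR hb, fun a ha => ?_⟩
        have hbQ : ⁅b, a⁆ ∈ Q := Q.mul_mem (hQn.conj_mem a ha b) (Q.inv_mem ha)
        refine ⟨hbQ, fun a' ha' => ?_⟩
        have hZ := h.comm_QQ_le (Subgroup.commutator_mem_commutator hbQ ha')
        rw [fn_mem μ hZ, hb' a ha a' ha' hZ, Units.val_one]
      rw [hBK] at h1
      exact Subgroup.mem_bot.1 h1)
  refine ⟨v, fun c hc => ?_, ?_⟩
  · rw [fn_mem μ hc]
    exact hv ⟨c, hc⟩
  · rw [sumS_eq, LinearMap.sum_apply]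
    exact hv'

/-- the final contradiction -/
theorem contra9 (h : D2 k Q R L N₁) (hD : DAt.{u} k ↥N₁) (hρ : ∀ g, ρ g = 1 → g = 1)
    (hN : ∀ S : Subgroup G, IsPGroup 2 S → Nil ρ S (k + 1)) : False := by
  have hQn := h.normalQ
  have hF2 : Fact (Nat.Prime 2) := ⟨Nat.prime_two⟩
  obtain ⟨S₁, hS₁N, hS₁, t, htM, htZ⟩ := h.exists_t hD
  have hS₁R : S₁ ≤ Subgroup.normalizer (R : Set G) := hS₁N.trans h.N₁R
  set S := R ⊔ S₁ with hSdef
  have hS : IsPGroup 2 S := by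
    rw [hSdef, sup_comm]
    exact hS₁.to_sup_of_normal_right' h.hR hS₁R
  have hRS : R ≤ S := le_sup_left
  have hS₁S : S₁ ≤ S := le_sup_right
  have hSR : S ≤ Subgroup.normalizer (R : Set G) := sup_le Subgroup.le_normalizer hS₁R
  have htR : t ∈ R := Mi_le hS₁R k htM
  have htS : t ∈ ds S k := Mi_le_ds hRS hS₁S k htM
  have ht1 : t ≠ 1 := fun h' => htZ (h' ▸ Subgroup.one_mem _)
  have hNS := hN S hS
  have hchar : ∀ a : Module.End K V, a + a = 0 := fun a => by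
    have h1 : (2 : K) = 0 := by
      have := CharP.cast_eq_zero K 2
      exact_mod_cast this
    rw [← two_smul K, h1, zero_smul]
  by_cases hab : Q ≤ Subgroup.centralizer (Q : Set G)
  · -- `Q` abelian
    obtain ⟨q, hq, hqQ⟩ := h.exists_prime
    have hqf : Fact q.Prime := ⟨hq⟩
    have hq2 : q ≠ 2 := by
      intro he
      obtain ⟨n, hn⟩ := hqQ.exists_card_eq
      have h1 := h.oddQ
      rw [hn, he] at h1
      have h2 : n = 0 := by
        by_contra hn0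
        exact (Nat.not_even_iff_odd.2 h1) (Nat.even_pow.2 ⟨even_two, hn0⟩)
      rw [h2, pow_zero] at hn
      exact h.QneBot (Subgroup.eq_bot_of_card_eq _ hn)
    apply ht1
    refine h.propP (isTwo_of_isPGroup h.hR htR) fun a ha => ?_
    by_contra hne
    have h1 : t⁻¹ * a * t ∈ Q := by
      have := hQn.conj_mem a ha t⁻¹
      simpa using this
    have hc : t⁻¹ * a * t * a⁻¹ ∈ Q := Q.mul_mem h1 (Q.inv_mem ha)
    obtain ⟨μ, hμ, hμc⟩ := H557.PartC.W ρ hq2 hqQ (fun a ha b hb => hab hb a ha) (fun a _ h' => hρ a h')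
      ⟨_, hc⟩ (fun h' => hne (by
        have h2 : t⁻¹ * a * t * a⁻¹ = 1 := congrArg Subtype.val h'
        have h3 : t⁻¹ * (a * t) = a := by
          rw [mul_inv_eq_one] at h2
          rw [← mul_assoc]; exact h2
        rw [inv_mul_eq_iff_eq_mul] at h3
        exact h3.symm))
    obtain ⟨v, hv0, hv⟩ := hμ
    have h2 := ds_fixes (Z := Q) (μ := fn μ) hNS hS (h.le_normQ S) (fun a ha c hc => hab hc a ha)
      ⟨v, fun c hc => by rw [fn_mem μ hc]; exact hv ⟨c, hc⟩, hv0⟩ t htS a ha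
    apply hμc
    have h3 : (⟨t⁻¹ * a * t * a⁻¹, hc⟩ : Q) = ⟨t⁻¹ * a * t, h1⟩ * ⟨a, ha⟩⁻¹ := rfl
    rw [fn_mem μ h1, fn_mem μ ha] at h2
    rw [h3, map_mul, map_inv, mul_inv_eq_one]
    exact Units.ext h2
  -- `Q` nonabelian
  have hZn : (ZQ Q).Normal := h.normalZQ
  have hSZ : S ≤ Subgroup.normalizer (ZQ Q : Set G) := by
    rw [Subgroup.normalizer_eq_top_iff.2 hZn]; exact le_top
  have hZab : ∀ a ∈ ZQ Q, ∀ c ∈ ZQ Q, a * c = c * a := fun a ha c hc => (ha.2 c hc.1).symm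
  by_cases hRab : R ≤ Subgroup.centralizer (R : Set G)
  · -- `R` abelian
    have hRab' : ∀ r ∈ R, ∀ s ∈ R, r * s = s * r := fun r hr s hs => (hRab hr s hs).symm
    have hR0 : ⁅R, R⁆ = ⊥ := by rwa [Subgroup.commutator_eq_bot_iff_le_centralizer]
    have hZ0 : ∀ c ∈ Z0 R L, c = 1 := fun c hc => by
      have := h.Z0_le hc
      rw [hR0, Subgroup.mem_bot] at this
      exact this
    have hR2 : ∀ r ∈ R, r ^ 2 = 1 := fun r hr => hZ0 _ (h.sq_mem hr)
    obtain ⟨μ, hμ, htK⟩ := exists_mu h.toD1 hab hρ htR ht1 (hR2 t htR)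
    have hμ' : ∃ v ∈ wK ρ (ZQ Q) (fn μ), v ≠ 0 := by
      obtain ⟨v, hv0, hv⟩ := hμ
      exact ⟨v, fun c hc => by rw [fn_mem μ hc]; exact hv ⟨c, hc⟩, hv0⟩
    obtain ⟨j, hjk, hjf, hprod⟩ := key_prod hNS hS hSZ hZab hμ'
    set Kb := Kmu h.toD1 hab μ with hKb
    -- strictness of the chain modulo `Kb`
    have hstrict : ∀ i, j ≤ i → i < k → ∃ r ∈ Mi R S₁ i, r ∉ Mi R S₁ (i + 1) ⊔ Kb := by
      intro i hji hik
      by_contra hcon
      push Not at hcon
      have h1 : Mi R S₁ i ≤ ⁅Mi R S₁ i, ds S₁ i⁆ ⊔ Kb := hcon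
      have h2 : ds S₁ i ≤ Subgroup.normalizer (Kb : Set G) := by
        have key : ∀ g ∈ ds S₁ i, ∀ x ∈ Kb, g * x * g⁻¹ ∈ Kb := by
          intro g hg x hx
          refine Kmu_conj h.toD1 hab μ (hS₁R (ds_le _ _ hg)) (fun y hy => ?_) hx
          have h3 := hjf g (ds_antitone S hji (ds_mono hS₁S i hg)) (g * y * g⁻¹) (hZn.conj_mem y hy g)
          have h4 : g⁻¹ * (g * y * g⁻¹) * g = y := by group
          rw [h4] at h3
          exact h3.symm
        intro g hg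
        rw [Subgroup.mem_normalizer_iff]
        intro x
        refine ⟨key g hg x, fun hx => ?_⟩
        have := key g⁻¹ (Subgroup.inv_mem _ hg) _ hx
        have h3 : g⁻¹ * (g * x * g⁻¹) * g⁻¹⁻¹ = x := by group
        rwa [h3] at this
      have h3 := PLocal.Uniserial.le_of_le_commutator_sup S (ds S₁ i) (Mi R S₁ i) Kb hS.isNilpotent
        ((ds_le S₁ i).trans hS₁S) ((Mi_le hS₁R i).trans hRS) (fun x hx => hRS hx.1) h2 h1
      exact htK (h3 (Mi_antitone hS₁R hik.le htM))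
    have hex : ∀ i : ℕ, ∃ r ∈ Mi R S₁ (j + i), (i < k - j → r ∉ Mi R S₁ (j + i + 1) ⊔ Kb) ∧ (i = k - j → r = t) := by
      intro i
      rcases lt_trichotomy i (k - j) with hi | hi | hi
      · obtain ⟨r, hr, hr'⟩ := hstrict (j + i) (Nat.le_add_right j i) (by omega)
        exact ⟨r, hr, fun _ => hr', fun he => absurd he hi.ne⟩
      · refine ⟨t, ?_, fun hlt => absurd hi hlt.ne, fun _ => rfl⟩
        have : j + i = k := by omega
        rw [this]; exact htM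
      · exact ⟨1, Subgroup.one_mem _, fun hlt => absurd hlt (by omega), fun he => absurd he (by omega)⟩
    choose s' hs' hs'' hs''' using hex
    obtain ⟨B, hBM, hBK, hBs⟩ := exists_B hchar ρ (K := Kb) hRab' hR2 (k - j) (fun i => Mi R S₁ (j + i)) s'
      (fun i _ => hs' i) (fun i _ => Mi_le hS₁R _) (fun i _ => Mi_succ_le hS₁R _)
      (fun i hi => hs'' i hi) (by rw [hs''' _ rfl]; exact htK)
    have hBR : B ≤ R := hBM.trans (Mi_le hS₁R _)
    obtain ⟨v, hv, hvne⟩ := exists_sum_ne h.toD1 hab μ hμ hBR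
      (fun a ha b hb => hRab' a (hBR ha) b (hBR hb)) (fun b hb => hR2 b (hBR hb)) hBK
    apply hvne
    rw [hBs]
    have h1 := hprod s' (fun i => Mi_le_ds hRS hS₁S _ (hs' i)) v hv
    have h2 : k - j + 1 = k + 1 - j := by omega
    rw [h2]
    exact h1
  · -- `R` nonabelian
    obtain ⟨r, hr, hne⟩ : ∃ r ∈ R, ⁅t, r⁆ ≠ 1 := by
      by_contra hcon
      push Not at hcon
      apply htZ
      refine h.center_le hRab ⟨htR, fun r hr => ?_⟩
      have := hcon r hr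
      rw [commutatorElement_eq_one_iff_mul_comm] at this
      exact this.symm
    set c := ⁅t, r⁆ with hc
    have hcZ : c ∈ Z0 R L := h.comm_RR (Subgroup.commutator_mem_commutator htR hr)
    have hcS : c ∈ ds S k := by
      have h1 : r * t⁻¹ * r⁻¹ ∈ ds S k :=
        (Subgroup.mem_normalizer_iff.1 (ds_norm S k (hRS hr)) _).1 (Subgroup.inv_mem _ htS)
      have h2 : c = t * (r * t⁻¹ * r⁻¹) := by rw [hc, commutatorElement_def]; group
      rw [h2]
      exact Subgroup.mul_mem _ htS h1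
    have hq1 := quadratic (ρ := ρ) hNS htS hcS
    have ht2 : t ^ 2 = 1 := by
      apply hρ
      have h1 := quadratic (ρ := ρ) hNS htS htS
      have h2 : (ρ t - 1) * (ρ t - 1) = ρ t * ρ t - 1 := by
        have h3 : (ρ t - 1) * (ρ t - 1) = ρ t * ρ t - (ρ t + ρ t) + 1 := by
          rw [sub_mul, mul_sub, mul_one, one_mul]; abel
        have h4 : (-1 : Module.End K V) = 1 := neg_eq_of_add_eq_zero_left (hchar 1)
        rw [h3, hchar, sub_zero, sub_eq_add_neg, h4]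
      rw [h2, sub_eq_zero] at h1
      rw [map_pow, pow_two]; exact h1
    have hc2 : c ^ 2 = 1 := h.Z0_sq hcZ
    obtain ⟨μ, hμ, hcK⟩ := exists_mu h.toD1 hab hρ hcZ.1 hne hc2
    set Kb := Kmu h.toD1 hab μ with hKb
    have hKbR : ∀ g ∈ R, ∀ x ∈ Kb, g * x * g⁻¹ ∈ Kb := fun g hg x hx =>
      Kmu_conj h.toD1 hab μ (Subgroup.le_normalizer hg) (R_fix h.toD1 hab μ hg) hx
    have htK : t ∉ Kb := by
      intro h'
      apply hcK
      have h2 : c = t * (r * t⁻¹ * r⁻¹) := by rw [hc, commutatorElement_def]; group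
      rw [h2]
      exact Kb.mul_mem h' (hKbR r hr _ (Kb.inv_mem h'))
    have htc : t * c = c * t := (h.Z0_central hcZ htR).symm
    -- the four-group
    have hnorm : Subgroup.zpowers c ≤ Subgroup.normalizer (Subgroup.zpowers t : Set G) := by
      refine le_trans ?_ (Subgroup.centralizer_le_normalizer _)
      rw [Subgroup.zpowers_le]
      rintro _ ⟨n, rfl⟩
      exact Commute.zpow_left htc n
    have hmem : ∀ x ∈ Subgroup.zpowers t ⊔ Subgroup.zpowers c, ∃ i j : ℤ, x = t ^ i * c ^ j := by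
      intro x hx
      obtain ⟨_, ⟨i, rfl⟩, _, ⟨j, rfl⟩, rfl⟩ := mem_sup_of_norm hnorm hx
      exact ⟨i, j, rfl⟩
    have hc' : ∀ i j : ℤ, Commute (t ^ i) (c ^ j) := fun i j => (Commute.zpow_zpow htc i j)
    have hR'ab : ∀ x ∈ Subgroup.zpowers t ⊔ Subgroup.zpowers c, ∀ y ∈ Subgroup.zpowers t ⊔ Subgroup.zpowers c,
        x * y = y * x := by
      intro x hx y hy
      obtain ⟨i, j, rfl⟩ := hmem x hx
      obtain ⟨i', j', rfl⟩ := hmem y hy
      have h1 : Commute (t ^ i * c ^ j) (t ^ i' * c ^ j') := by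
        refine Commute.mul_left (Commute.mul_right ?_ (hc' _ _)) (Commute.mul_right (hc' _ _).symm ?_)
        · exact Commute.zpow_zpow_self t i i'
        · exact Commute.zpow_zpow_self c j j'
      exact h1
    have hR'2 : ∀ x ∈ Subgroup.zpowers t ⊔ Subgroup.zpowers c, x ^ 2 = 1 := by
      intro x hx
      obtain ⟨i, j, rfl⟩ := hmem x hx
      rw [(hc' i j).mul_pow, ← zpow_natCast, ← zpow_natCast, ← zpow_mul, ← zpow_mul, mul_comm i, mul_comm j,
        zpow_mul, zpow_mul, zpow_natCast, zpow_natCast, ht2, hc2, one_zpow, one_zpow, one_mul]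
    obtain ⟨B, hBM, hBK, hBs⟩ := exists_B hchar ρ (K := Kb) hR'ab hR'2 1
      (fun i => if i = 0 then Subgroup.zpowers t ⊔ Subgroup.zpowers c else Subgroup.zpowers t)
      (fun i => if i = 0 then c else t)
      (fun i _ => by
        by_cases hi : i = 0
        · simp only [if_pos hi]; exact Subgroup.mem_sup_right (Subgroup.mem_zpowers c)
        · simp only [if_neg hi]; exact Subgroup.mem_zpowers t)
      (fun i _ => by
        by_cases hi : i = 0
        · simp only [if_pos hi]; exact le_rfl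
        · simp only [if_neg hi]; exact le_sup_left)
      (fun i hi => by
        have hi0 : i = 0 := by omega
        subst hi0
        simp)
      (fun i hi => by
        have hi0 : i = 0 := by omega
        subst hi0
        simp only [if_true, Nat.zero_add, one_ne_zero, if_false]
        intro hcm
        have hKbt : Subgroup.zpowers t ≤ Subgroup.normalizer (Kb : Set G) := by
          rw [Subgroup.zpowers_le, Subgroup.mem_normalizer_iff]
          intro x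
          refine ⟨hKbR t htR x, fun hx => ?_⟩
          have := hKbR t⁻¹ (R.inv_mem htR) _ hx
          have h3 : t⁻¹ * (t * x * t⁻¹) * t⁻¹⁻¹ = x := by group
          rwa [h3] at this
        rw [sup_comm] at hcm
        obtain ⟨κ, hκ, _, ⟨n, rfl⟩, hcκ⟩ := mem_sup_of_norm hKbt hcm
        rcases Int.even_or_odd n with ⟨m, hm⟩ | ⟨m, hm⟩
        · have h1 : t ^ n = 1 := by
            rw [hm, ← two_mul, zpow_mul]
            have : t ^ (2 : ℤ) = 1 := by exact_mod_cast ht2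
            rw [this, one_zpow]
          simp only [h1, mul_one] at hcκ
          exact hcK (hcκ ▸ hκ)
        · have h1 : t ^ n = t := by
            rw [hm, zpow_add, zpow_mul]
            have : t ^ (2 : ℤ) = 1 := by exact_mod_cast ht2
            rw [this, one_zpow, one_mul, zpow_one]
          simp only [h1] at hcκ
          -- `t = κ⁻¹ c`
          have h2 : t = κ⁻¹ * c := by rw [hcκ]; group
          have h3 : c = κ⁻¹ * (r * κ * r⁻¹) := by
            have h4 : c * r = r * c := h.Z0_central hcZ hr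
            have h5 : c = (κ⁻¹ * c) * r * (κ⁻¹ * c)⁻¹ * r⁻¹ := by
              rw [← h2]; rw [hc, commutatorElement_def]
            have h6 : (κ⁻¹ * c) * r * (κ⁻¹ * c)⁻¹ * r⁻¹ = κ⁻¹ * (c * r) * c⁻¹ * κ * r⁻¹ := by group
            rw [h6, h4] at h5
            rw [h5]; group
          apply hcK
          rw [h3]
          exact Kb.mul_mem (Kb.inv_mem hκ) (hKbR r hr κ hκ))
      (by simp only [one_ne_zero, if_false]; exact htK)
    simp only [if_true] at hBM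
    have hBR : B ≤ R := hBM.trans (sup_le (by rw [Subgroup.zpowers_le]; exact htR)
      (by rw [Subgroup.zpowers_le]; exact hcZ.1))
    obtain ⟨v, hv, hvne⟩ := exists_sum_ne h.toD1 hab μ hμ hBR
      (fun a ha b hb => hR'ab a (hBM ha) b (hBM hb)) (fun b hb => hR'2 b (hBM hb)) hBK
    apply hvne
    rw [hBs]
    show ((ρ t - 1) * ((ρ c - 1) * 1)) v = 0
    rw [mul_one, hq1, LinearMap.zero_apply]

end Contra

end Cfsg.Agent.H552
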