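import Mathlib
import Cfsg.Agent.H552.Syl
import Cfsg.Agent.S0001
set_option linter.all false

/-!
# Complements of a normal Sylow `2`-subgroup inside an ambient group (helper552; for S4258)
-/

set_option autoImplicit false
set_option linter.unusedSectionVars false
set_option linter.unusedVariables false
set_option linter.style.haveILetI false

namespace Cfsg.Agent.H552

open scoped Pointwise

variable {G : Type*} [Group G] [Finite G]

/-- elements of `A ⊔ B` if `B` normalizes `A` -/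
theorem mem_sup_of_norm {A B : Subgroup G} (h : B ≤ Subgroup.normalizer (A : Set G)) {x : G}
    (hx : x ∈ A ⊔ B) : ∃ a ∈ A, ∃ b ∈ B, x = a * b := by
  have h1 := Subgroup.coe_mul_of_right_le_normalizer_left A B h
  have h2 : x ∈ (A : Set G) * (B : Set G) := by
    rw [← h1]; exact hx
  obtain ⟨a, ha, b, hb, hab⟩ := h2
  exact ⟨a, ha, b, hb, hab.symm⟩

/-- Schur-Zassenhaus, existence -/
theorem SZ_exists {R K : Subgroup G} (hRK : R ≤ K) (hK : K ≤ Subgroup.normalizer (R : Set G))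
    (hR : IsPGroup 2 R) (hidx : ¬ 2 ∣ R.relIndex K) :
    ∃ L ≤ K, Odd (Nat.card L) ∧ ∀ x ∈ K, ∃ r ∈ R, ∃ l ∈ L, x = r * l := by
  have hn : (R.subgroupOf K).Normal := Subgroup.normal_subgroupOf_iff_le_normalizer hRK |>.2 hK
  have hcard : Nat.card (R.subgroupOf K) = Nat.card R :=
    Nat.card_congr (Subgroup.subgroupOfEquivOfLe hRK).toEquiv
  have hcop : Nat.Coprime (Nat.card (R.subgroupOf K)) (R.subgroupOf K).index := by
    rw [hcard]
    obtain ⟨n, hn⟩ := hR.exists_card_eq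
    rw [hn]
    exact Nat.Coprime.pow_left n ((Nat.Prime.coprime_iff_not_dvd Nat.prime_two).2 hidx)
  obtain ⟨H, hH⟩ := Subgroup.exists_right_complement'_of_coprime hcop
  have hodd : Odd (Nat.card H) := by
    have h1 : Nat.card H = (R.subgroupOf K).index := hH.symm.index_eq_card.symm
    rw [h1]
    exact Nat.not_even_iff_odd.1 fun he => hidx (even_iff_two_dvd.1 he)
  refine ⟨H.map K.subtype, Subgroup.map_subtype_le _, ?_, ?_⟩
  · rwa [Subgroup.card_map_of_injective K.subtype_injective]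
  · intro x hx
    obtain ⟨⟨r, l⟩, hrl⟩ := hH.2 ⟨x, hx⟩
    have h1 : (r : K) * (l : K) = ⟨x, hx⟩ := hrl
    exact ⟨r, Subgroup.mem_subgroupOf.1 r.2, l, ⟨l, l.2, rfl⟩, (congrArg Subtype.val h1).symm⟩

/-- Schur-Zassenhaus, conjugacy -/
theorem SZ_conj {R K : Subgroup G} (hRK : R ≤ K) (hK : K ≤ Subgroup.normalizer (R : Set G))
    (hR : IsPGroup 2 R) (hidx : ¬ 2 ∣ R.relIndex K) {L L' : Subgroup G} (hL : L ≤ K)
    (hLo : Odd (Nat.card L)) (hLs : ∀ x ∈ K, ∃ r ∈ R, ∃ l ∈ L, x = r * l) (hL' : L' ≤ K)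
    (hc : Nat.card L' = Nat.card L) :
    ∃ r ∈ R, ∀ l ∈ L', r * l * r⁻¹ ∈ L := by
  have hn : (R.subgroupOf K).Normal := Subgroup.normal_subgroupOf_iff_le_normalizer hRK |>.2 hK
  have hcard : Nat.card (R.subgroupOf K) = Nat.card R :=
    Nat.card_congr (Subgroup.subgroupOfEquivOfLe hRK).toEquiv
  have hcop : Nat.Coprime (Nat.card (R.subgroupOf K)) (R.subgroupOf K).index := by
    rw [hcard]
    obtain ⟨n, hn⟩ := hR.exists_card_eq
    rw [hn]
    exact Nat.Coprime.pow_left n ((Nat.Prime.coprime_iff_not_dvd Nat.prime_two).2 hidx)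
  have hdisj : ∀ M : Subgroup G, M ≤ K → Odd (Nat.card M) →
      Disjoint (R.subgroupOf K) (M.subgroupOf K) := by
    intro M hM hMo
    rw [Subgroup.disjoint_def]
    rintro x hx hx'
    rw [Subgroup.mem_subgroupOf] at hx hx'
    exact Subtype.ext (eq_one_of_isTwo_of_odd (isTwo_of_isPGroup hR hx)
      (odd_orderOf_of_mem hMo hx'))
  have hcompL : Subgroup.IsComplement' (R.subgroupOf K) (L.subgroupOf K) := by
    refine Subgroup.isComplement'_of_disjoint_and_mul_eq_univ (hdisj L hL hLo) ?_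
    rw [Set.eq_univ_iff_forall]
    rintro ⟨x, hx⟩
    obtain ⟨r, hr, l, hl, hrl⟩ := hLs x hx
    exact ⟨⟨r, hRK hr⟩, Subgroup.mem_subgroupOf.2 hr, ⟨l, hL hl⟩, Subgroup.mem_subgroupOf.2 hl,
      Subtype.ext hrl.symm⟩
  have hcL : Nat.card (L.subgroupOf K) = Nat.card L :=
    Nat.card_congr (Subgroup.subgroupOfEquivOfLe hL).toEquiv
  have hcL' : Nat.card (L'.subgroupOf K) = Nat.card L' :=
    Nat.card_congr (Subgroup.subgroupOfEquivOfLe hL').toEquiv
  have hcompL' : Subgroup.IsComplement' (R.subgroupOf K) (L'.subgroupOf K) := by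
    refine Subgroup.isComplement'_of_card_mul_and_disjoint ?_ (hdisj L' hL' (hc ▸ hLo))
    rw [hcL', hc, ← hcL]
    exact hcompL.card_mul_card
  have hsolv : Group.IsSolvable (R.subgroupOf K) := by
    have h2 : IsPGroup 2 (R.subgroupOf K) := by
      rintro ⟨x, hx⟩
      obtain ⟨k, hk⟩ := hR ⟨(x : G), Subgroup.mem_subgroupOf.1 hx⟩
      refine ⟨k, Subtype.ext (Subtype.ext ?_)⟩
      have := congrArg Subtype.val hk
      simpa using this
    have := h2.isNilpotent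
    infer_instance
  obtain ⟨g, hg⟩ := S0001.result (R.subgroupOf K) hcop (Or.inl hsolv) (L'.subgroupOf K)
    (L.subgroupOf K) hcompL' hcompL
  -- `g = l r` with `l ∈ L`, `r ∈ R`
  obtain ⟨r, hr, l, hl, hrl⟩ := hLs (g⁻¹ : K) (g⁻¹ : K).2
  refine ⟨r⁻¹, R.inv_mem hr, fun y hy => ?_⟩
  have h1 : g * ⟨y, hL' hy⟩ * g⁻¹ ∈ L.subgroupOf K := by
    rw [← hg]
    exact Subgroup.smul_mem_pointwise_smul (⟨y, hL' hy⟩ : K) (MulAut.conj g) _
      (Subgroup.mem_subgroupOf.2 hy)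
  rw [Subgroup.mem_subgroupOf] at h1
  have h2 : (g : G) * y * (g : G)⁻¹ ∈ L := h1
  have h3 : (g : G) = l⁻¹ * r⁻¹ := by
    have : (g : G)⁻¹ = r * l := hrl
    rw [← inv_inv (g : G), this, mul_inv_rev]
  rw [h3] at h2
  have h4 := L.mul_mem (L.mul_mem hl h2) (L.inv_mem hl)
  have h5 : l * (l⁻¹ * r⁻¹ * y * (l⁻¹ * r⁻¹)⁻¹) * l⁻¹ = r⁻¹ * y * r⁻¹⁻¹ := by group
  rwa [h5] at h4

end Cfsg.Agent.H552
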